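import Cfsg.Agent.GL2D.LinB
import Cfsg.Prelude.Def_CaseTheorems
import Cfsg.Agent.Solv.CyclicIndexP

/-! Elements of prime order with fixed vectors in `GL₂(D)`; odd `p`-subgroups. -/

set_option autoImplicit false

namespace Cfsg.Lib.GL2D

open Finset

section Ring

variable {A : Type*} [Ring A]

/-- The sum of the first `p` powers. -/
def nrm (p : ℕ) (x : A) : A := ∑ j ∈ range p, x ^ j

theorem nrm_eq_1' : type_of% @nrm.eq_1 := @nrm.eq_1

theorem nrm_one (p : ℕ) : nrm p (1 : A) = p := by simp [nrm]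

theorem nrm_comm {p : ℕ} {x y : A} (h : y * x = x * y) : y * nrm p x = nrm p x * y :=
  (Commute.sum_right _ _ _ fun j _ => Commute.pow_right h j).eq

theorem nrm_conj (p : ℕ) (P g : Aˣ) :
    nrm p ((P * g * P⁻¹ : Aˣ) : A) = P * nrm p (g : A) * (P⁻¹ : Aˣ) := by
  simp only [nrm, Finset.mul_sum, Finset.sum_mul]
  refine Finset.sum_congr rfl fun j _ => ?_
  rw [← Units.val_pow_eq_pow_val, conj_pow, ← Units.val_pow_eq_pow_val, Units.val_mul, Units.val_mul]

theorem nrm_mul_self {p : ℕ} {x : A} (hx : x ^ p = 1) : nrm p x * nrm p x = p • nrm p x := by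
  conv_lhs => enter [2]; rw [nrm]
  rw [Finset.mul_sum, Finset.sum_congr rfl (g := fun _ => nrm p x), Finset.sum_const, card_range]
  intro j _
  exact geom_mul_pow_eq hx j

/-- The partition identity for an elementary abelian group of order `p ^ 2`. -/
theorem exists_nrm_ne_zero {p : ℕ} (hp : p.Prime) (hA : (p : A) ≠ 0) {a b : Aˣ} (ha : orderOf a = p)
    (hb : b ^ p = 1) (hab : a * b = b * a) (hne : b ∉ Subgroup.zpowers a) :
    ∃ g ∈ Subgroup.closure ({a, b} : Set Aˣ), g ≠ 1 ∧ g ^ p = 1 ∧ nrm p (g : A) ≠ 0 := by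
  by_contra hc
  push Not at hc
  have haE : a ∈ Subgroup.closure ({a, b} : Set Aˣ) := Subgroup.subset_closure (by simp)
  have hbE : b ∈ Subgroup.closure ({a, b} : Set Aˣ) := Subgroup.subset_closure (by simp)
  have hap : a ^ p = 1 := ha ▸ pow_orderOf_eq_one a
  have hcm : Commute a b := hab
  have h1 : ∀ k, nrm p ((a ^ k * b : Aˣ) : A) = 0 := by
    intro k
    refine hc _ (Subgroup.mul_mem _ (Subgroup.pow_mem _ haE k) hbE) ?_ ?_
    · intro h
      apply hne
      rw [mul_eq_one_iff_inv_eq] at h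
      rw [← h]
      exact Subgroup.inv_mem _ (Subgroup.pow_mem _ (Subgroup.mem_zpowers a) k)
    · rw [(hcm.pow_left k).mul_pow, hb, ← pow_mul, mul_comm, pow_mul, hap]; simp
  have h2 : ∀ j, 0 < j → j < p → nrm p ((a ^ j : Aˣ) : A) = 0 := by
    intro j hj hjp
    refine hc _ (Subgroup.pow_mem _ haE j) ?_ ?_
    · exact pow_ne_one_of_lt_orderOf hj.ne' (ha ▸ hjp)
    · rw [← pow_mul, mul_comm, pow_mul, hap, one_pow]
  have h3 : ∑ k ∈ range p, nrm p ((a ^ k * b : Aˣ) : A) =
      ∑ j ∈ range p, nrm p ((a ^ j : Aˣ) : A) * (b : A) ^ j := by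
    simp only [nrm, Finset.sum_mul]
    rw [Finset.sum_comm]
    refine Finset.sum_congr rfl fun j _ => Finset.sum_congr rfl fun k _ => ?_
    rw [← Units.val_pow_eq_pow_val, (hcm.pow_left k).mul_pow, ← pow_mul, mul_comm k, pow_mul]
    simp
  obtain ⟨q, rfl⟩ : ∃ q, p = q + 1 := ⟨p - 1, by have := hp.pos; omega⟩
  rw [Finset.sum_eq_zero fun k _ => h1 k, Finset.sum_range_succ', Finset.sum_eq_zero fun j hj => by
    rw [h2 (j + 1) (Nat.succ_pos j) (by have := mem_range.mp hj; omega), zero_mul]] at h3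
  apply hA
  simpa [nrm_one] using h3.symm

end Ring

variable {D : Type*} [DivisionRing D] [CharZero D]

omit [CharZero D] in
theorem nrm_eq_zero {p : ℕ} {x : Dˣ} (hx : x ^ p = 1) (h1 : x ≠ 1) : nrm p (x : D) = 0 := by
  have := geom_sum_mul (x : D) p
  rw [← Units.val_pow_eq_pow_val, hx, Units.val_one, sub_self] at this
  exact (mul_eq_zero.mp this).resolve_right fun h => h1 (Units.ext (sub_eq_zero.mp h))

/-- Commuting roots of unity of prime order in a division ring. -/
theorem mem_zpowers_of_comm {p : ℕ} (hp : p.Prime) {x c : Dˣ} (hx : x ^ p = 1) (h1 : x ≠ 1)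
    (hc : c ^ p = 1) (h : x * c = c * x) : c ∈ Subgroup.zpowers x := by
  by_contra hne
  have : Fact p.Prime := ⟨hp⟩
  obtain ⟨g, -, hg1, hgp, hg⟩ := exists_nrm_ne_zero hp (Nat.cast_ne_zero.mpr hp.ne_zero)
    (orderOf_eq_prime hx h1) hc h hne
  exact hg (nrm_eq_zero hgp hg1)

/-- A finite `p`-group of units of `D` is cyclic if `p` is odd or it is abelian. -/
theorem isCyclic_of_units {p : ℕ} (hp : p.Prime) {H : Type*} [Group H] [Finite H] (hH : IsPGroup p H)
    (f : H →* Dˣ) (hf : Function.Injective f) (h2 : p ≠ 2 ∨ IsMulCommutative H) : IsCyclic H := by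
  have : Fact p.Prime := ⟨hp⟩
  have key : ∀ A : Subgroup H, IsMulCommutative A → IsCyclic A := by
    intro A hA
    refine Solv.PG.isCyclic_of_unique_card_prime (p := p) (hH.to_subgroup A) ?_ (Or.inr hA)
    intro K L hK hL hcK hcL
    have hKb : K ≠ ⊥ := by
      rintro rfl
      rw [Subgroup.card_bot] at hcK
      exact hp.one_lt.ne hcK
    obtain ⟨⟨x, hxK⟩, hx1⟩ := Subgroup.ne_bot_iff_exists_ne_one.mp hKb
    have hx1' : x ≠ 1 := fun h => hx1 (Subtype.ext h)
    have hpow : ∀ (M : Subgroup H), Nat.card M = p → ∀ y ∈ M, y ^ p = 1 := by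
      intro M hM y hy
      have := pow_card_eq_one' (G := M) (x := ⟨y, hy⟩)
      rw [hM] at this
      exact congrArg Subtype.val this
    symm
    apply Subgroup.eq_of_le_of_card_ge _ (by rw [hcK, hcL])
    intro y hy
    have hxy : x * y = y * x := setLike_mul_comm (hK hxK) (hL hy)
    obtain ⟨m, hm⟩ := mem_zpowers_of_comm hp (x := f x) (c := f y)
      (by rw [← map_pow, hpow K hcK x hxK, map_one]) (fun h => hx1' (hf (by rw [h, map_one])))
      (by rw [← map_pow, hpow L hcL y hy, map_one]) (by rw [← map_mul, hxy, map_mul])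
    have : x ^ m = y := hf (by rw [map_zpow]; exact hm)
    rw [← this]
    exact K.zpow_mem hxK m
  rcases h2 with h2 | h2
  · exact Solv.PG.isCyclic_of_forall_normal_abelian_isCyclic hH h2 fun A _ hA => key A hA
  · have := key ⊤ inferInstance
    exact isCyclic_of_surjective Subgroup.topEquiv Subgroup.topEquiv.surjective

omit [CharZero D] in
theorem nrm_dg (p : ℕ) (a b : Dˣ) :
    nrm p (dg a b).val = !![nrm p (a : D), 0; 0, nrm p (b : D)] := by
  simp only [nrm]
  induction p with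
  | zero => ext i j; fin_cases i <;> fin_cases j <;> simp
  | succ p ih =>
    rw [sum_range_succ, sum_range_succ, sum_range_succ, ih, ← Units.val_pow_eq_pow_val, dg_pow, dg_val]
    simp

/-- Coordinates adapted to an element with fixed vectors. -/
theorem exists_frame {p : ℕ} (hp : p ≠ 0) {g : GG D} (hg : g ^ p = 1) (h1 : g ≠ 1)
    (h0 : nrm p g.val ≠ 0) : ∃ P : GG D, P.val * nrm p g.val * (P⁻¹).val = !![0, 0; 0, (p : D)] := by
  have hpq : (p : ℚ) ≠ 0 := Nat.cast_ne_zero.mpr hp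
  have hgv : g.val ^ p = 1 := by rw [← Units.val_pow_eq_pow_val, hg, Units.val_one]
  have hN : nrm p g.val = (p : ℚ) • ((p : ℚ)⁻¹ • nrm p g.val) := by
    rw [smul_smul, mul_inv_cancel₀ hpq, one_smul]
  obtain ⟨P, hP⟩ := exists_conj_idem ((p : ℚ)⁻¹ • nrm p g.val) (by
    rw [smul_mul_assoc, mul_smul_comm, nrm_mul_self hgv, ← Nat.cast_smul_eq_nsmul ℚ, smul_smul, smul_smul,
      mul_assoc, inv_mul_cancel₀ hpq, mul_one]) (fun h => h0 (by rw [hN, h, smul_zero])) (by
    intro h
    apply h1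
    have h2 := geom_mul_pow_eq hgv 1
    change nrm p g.val * g.val ^ 1 = nrm p g.val at h2
    rw [hN, h, smul_mul_assoc, one_mul, pow_one] at h2
    exact Units.ext (smul_right_injective _ hpq h2))
  refine ⟨P, ?_⟩
  rw [hN, mul_smul_comm, smul_mul_assoc, hP]
  ext i j
  fin_cases i <;> fin_cases j <;> simp [Rat.smul_def]

theorem exists_dg_of_comm_frame {p : ℕ} (hp : p ≠ 0) {y : GG D}
    (h : y.val * !![0, 0; 0, (p : D)] = !![0, 0; 0, (p : D)] * y.val) : ∃ a b, y = dg a b := by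
  have h1 := congrFun (congrFun h 0) 1
  have h2 := congrFun (congrFun h 1) 0
  simp [Matrix.mul_apply, Fin.sum_univ_two, hp] at h1 h2
  exact exists_dg_of_entries y h1 h2

theorem exists_dg_conj {p : ℕ} (hp : p ≠ 0) {N : Matrix (Fin 2) (Fin 2) D} {P y : GG D}
    (hP : P.val * N * (P⁻¹).val = !![0, 0; 0, (p : D)]) (h : y.val * N = N * y.val) :
    ∃ a b, P * y * P⁻¹ = dg a b := by
  apply exists_dg_of_comm_frame hp
  rw [← hP]
  simp only [Units.val_mul, mul_assoc, Units.inv_mul_cancel_left]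
  rw [← mul_assoc y.val, h, mul_assoc]

/-- If `g` has fixed vectors and commutes with its conjugate under `n`, then `n ^ 2` fixes the
decomposition given by `g`. -/
theorem sq_comm_nrm {p : ℕ} (hp : p ≠ 0) {g n : GG D} (hg : g ^ p = 1) (h1 : g ≠ 1)
    (h0 : nrm p g.val ≠ 0) (hc : (n * g * n⁻¹) * g = g * (n * g * n⁻¹)) :
    (n * n).val * nrm p g.val * ((n * n)⁻¹).val = nrm p g.val := by
  obtain ⟨P, hP⟩ := exists_frame hp hg h1 h0
  obtain ⟨c, d, hcd⟩ := exists_dg_conj hp hP (y := n * g * n⁻¹)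
    (nrm_comm (by rw [← Units.val_mul, hc, Units.val_mul]))
  have hpw : dg c d ^ p = 1 := by rw [← hcd, conj_pow, conj_pow, hg]; simp
  rw [dg_pow, dg_eq_one] at hpw
  have hN := nrm_dg p c d
  rw [← hcd, nrm_conj, nrm_conj] at hN
  have hcanc : ∀ X Y : Matrix (Fin 2) (Fin 2) D, P.val * X * (P⁻¹).val = P.val * Y * (P⁻¹).val → X = Y :=
    fun X Y h => (Units.mul_right_inj P).mp ((Units.mul_left_inj P⁻¹).mp h)
  have e : (n * n).val * nrm p g.val * ((n * n)⁻¹).val =
      n.val * (n.val * nrm p g.val * (n⁻¹).val) * (n⁻¹).val := by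
    rw [mul_inv_rev]; simp only [Units.val_mul, mul_assoc]
  by_cases hc1 : c = 1 <;> by_cases hd1 : d = 1
  · exfalso
    rw [hc1, hd1, dg_one] at hcd
    apply h1
    simpa using hcd
  · have h2 : n.val * nrm p g.val * (n⁻¹).val = p - nrm p g.val := by
      apply hcanc
      rw [hN, mul_sub, sub_mul, hP, hc1, nrm_eq_zero hpw.2 hd1, Units.val_one, nrm_one,
        ← (Nat.cast_commute p P.val).eq, mul_assoc, Units.mul_inv, mul_one]
      ext i j
      fin_cases i <;> fin_cases j <;> simp [Matrix.natCast_apply]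
    rw [e, h2, mul_sub, sub_mul, h2, ← (Nat.cast_commute p n.val).eq, mul_assoc, Units.mul_inv]
    simp
  · have h2 : n.val * nrm p g.val * (n⁻¹).val = nrm p g.val := by
      apply hcanc
      rw [hN, hP, hd1, nrm_eq_zero hpw.1 hc1, Units.val_one, nrm_one]
    rw [e, h2, h2]
  · exfalso
    apply h0
    rw [nrm_eq_zero hpw.1 hc1, nrm_eq_zero hpw.2 hd1] at hN
    have h2 : n.val * nrm p g.val * (n⁻¹).val = 0 := by
      apply hcanc
      rw [hN]
      ext i j
      fin_cases i <;> fin_cases j <;> simp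
    simpa using h2

theorem mem_zpowers_of_nrm_eq {p : ℕ} (hp : p.Prime) {g h : GG D} (hg : g ^ p = 1) (h1 : g ≠ 1)
    (h0 : nrm p g.val ≠ 0) (hh : h ^ p = 1) (hc : h * g = g * h) (hN : nrm p h.val = nrm p g.val) :
    h ∈ Subgroup.zpowers g := by
  obtain ⟨P, hP⟩ := exists_frame hp.ne_zero hg h1 h0
  have aux : ∀ y : GG D, y * g = g * y → y ^ p = 1 → nrm p y.val = nrm p g.val →
      ∃ c, c ^ p = 1 ∧ P * y * P⁻¹ = dg c 1 := by
    intro y hy hyp hyN
    obtain ⟨c, d, hcd⟩ := exists_dg_conj hp.ne_zero hP (y := y)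
      (nrm_comm (by rw [← Units.val_mul, hy, Units.val_mul]))
    have hpw : dg c d ^ p = 1 := by rw [← hcd, conj_pow, hyp]; simp
    rw [dg_pow, dg_eq_one] at hpw
    have hN := nrm_dg p c d
    rw [← hcd, nrm_conj, hyN, hP] at hN
    have h11 := congrFun (congrFun hN 1) 1
    have hd : d = 1 := by
      by_contra hd
      rw [nrm_eq_zero hpw.2 hd] at h11
      simp [hp.ne_zero] at h11
    exact ⟨c, hpw.1, hd ▸ hcd⟩
  obtain ⟨x, hx, hgx⟩ := aux g rfl hg rfl
  obtain ⟨c, hcp, hhc⟩ := aux h hc hh hN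
  have hx1 : x ≠ 1 := by
    rintro rfl
    rw [dg_one] at hgx
    apply h1
    simpa using hgx
  have hxc : x * c = c * x := by
    have : dg x 1 * dg c 1 = dg c 1 * dg x 1 := by
      rw [← hgx, ← hhc]
      simp only [mul_assoc, inv_mul_cancel_left]
      rw [← mul_assoc g, ← hc, mul_assoc]
    rw [dg_mul, dg_mul, dg_inj] at this
    exact this.1
  obtain ⟨m, hm⟩ := mem_zpowers_of_comm hp hx hx1 hcp hxc
  refine ⟨m, ?_⟩
  have : P * g ^ m * P⁻¹ = P * h * P⁻¹ := by
    rw [← conj_zpow, hgx, hhc, dg_zpow, one_zpow]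
    exact congrArg (fun c => dg c 1) hm
  simpa using this

/-- in an `E_{p^2}` some subgroup of order `p` is fixed by the squares of the normalizer -/
theorem exists_kernel {p : ℕ} (hp : p.Prime) {a b : GG D} (ha : orderOf a = p) (hb : orderOf b = p)
    (hab : a * b = b * a) (hne : b ∉ Subgroup.zpowers a) :
    ∃ g ∈ Subgroup.closure ({a, b} : Set (GG D)), g ≠ 1 ∧ ∀ n : GG D,
      (∀ e ∈ Subgroup.closure ({a, b} : Set (GG D)), n * e * n⁻¹ ∈ Subgroup.closure ({a, b} : Set (GG D))) →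
        (n * n) * g * (n * n)⁻¹ ∈ Subgroup.zpowers g := by
  have hA : ((p : ℕ) : Matrix (Fin 2) (Fin 2) D) ≠ 0 := by
    intro h
    have := congrFun (congrFun h 0) 0
    simp [Matrix.natCast_apply, hp.ne_zero] at this
  obtain ⟨g, hgE, hg1, hgp, hg0⟩ := exists_nrm_ne_zero hp hA ha (hb ▸ pow_orderOf_eq_one b) hab hne
  refine ⟨g, hgE, hg1, fun n hn => ?_⟩
  have hcomm : IsMulCommutative (Subgroup.closure ({a, b} : Set (GG D))) :=
    Subgroup.isMulCommutative_closure (by
      intro x hx y hy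
      simp only [Set.mem_insert_iff, Set.mem_singleton_iff] at hx hy
      rcases hx with rfl | rfl <;> rcases hy with rfl | rfl <;> simp [hab])
  have h1 := hn g hgE
  have h2 := hn _ h1
  have e : n * (n * g * n⁻¹) * n⁻¹ = (n * n) * g * (n * n)⁻¹ := by group
  rw [e] at h2
  refine mem_zpowers_of_nrm_eq hp hgp hg1 hg0 (by rw [conj_pow, hgp]; simp)
    (setLike_mul_comm h2 hgE) ?_
  rw [nrm_conj]
  exact sq_comm_nrm hp.ne_zero hgp hg1 hg0 (setLike_mul_comm h1 hgE)

theorem card_le_of_isCyclic_of_pow {p : ℕ} (hp : p ≠ 0) {H : Type*} [Group H] [IsCyclic H]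
    (h : ∀ x : H, x ^ p = 1) : Nat.card H ≤ p := by
  rw [← IsCyclic.exponent_eq_card]
  exact Nat.le_of_dvd (Nat.pos_of_ne_zero hp) (Monoid.exponent_dvd_of_forall_pow_eq_one h)

omit [CharZero D] in
/-- The coordinate homomorphisms of a diagonalisable group. -/
theorem exists_coord {H : Type*} [Group H] (f : H →* GG D) (h : ∀ x, ∃ a b, f x = dg a b) :
    ∃ u v : H →* Dˣ, ∀ x, f x = dg (u x) (v x) := by
  choose a b hab using h
  have hm : ∀ x y, a (x * y) = a x * a y ∧ b (x * y) = b x * b y := by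
    intro x y
    rw [← dg_inj, ← dg_mul, ← hab, ← hab, ← hab, map_mul]
  exact ⟨MonoidHom.mk' a fun x y => (hm x y).1, MonoidHom.mk' b fun x y => (hm x y).2, hab⟩

/-- odd `p`-subgroups are abelian of rank at most 2 -/
theorem odd_pgroup_comm {p : ℕ} (hp : p.Prime) (h2 : p ≠ 2) (P : Subgroup (GG D)) [Finite P]
    (hP : IsPGroup p P) : (∀ a ∈ P, ∀ b ∈ P, a * b = b * a) ∧ PRankLE p 2 P := by
  have : Fact p.Prime := ⟨hp⟩
  by_cases hcyc : IsCyclic P
  · refine ⟨fun a ha b hb => ?_, fun A _ hA => ?_⟩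
    · have := hcyc.isMulCommutative
      exact setLike_mul_comm ha hb
    · have h1 := card_le_of_isCyclic_of_pow hp.ne_zero (H := A) fun x => Subtype.ext (hA x x.2)
      exact h1.trans (Nat.le_self_pow two_ne_zero p)
  obtain ⟨A, hAn, hAc, hA⟩ : ∃ A : Subgroup P, A.Normal ∧ IsMulCommutative A ∧ ¬ IsCyclic A := by
    by_contra hc
    push Not at hc
    exact hcyc (Solv.PG.isCyclic_of_forall_normal_abelian_isCyclic hP h2 hc)
  obtain ⟨K, L, hK, hL, hcK, hcL, hKL⟩ : ∃ K L : Subgroup P, K ≤ A ∧ L ≤ A ∧ Nat.card K = p ∧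
      Nat.card L = p ∧ K ≠ L := by
    by_contra hc
    push Not at hc
    exact hA (Solv.PG.isCyclic_of_unique_card_prime (p := p) (hP.to_subgroup A) hc (Or.inl h2))
  have hpow : ∀ (M : Subgroup P), Nat.card M = p → ∀ y ∈ M, y ^ p = 1 := by
    intro M hM y hy
    have := pow_card_eq_one' (G := M) (x := ⟨y, hy⟩)
    rw [hM] at this
    exact congrArg Subtype.val this
  have hKb : K ≠ ⊥ := by
    rintro rfl
    rw [Subgroup.card_bot] at hcK
    exact hp.one_lt.ne hcK
  obtain ⟨⟨x, hxK⟩, hx1⟩ := Subgroup.ne_bot_iff_exists_ne_one.mp hKb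
  have hx1' : x ≠ 1 := fun h => hx1 (Subtype.ext h)
  obtain ⟨y, hyL, hyK⟩ : ∃ y ∈ L, y ∉ K := by
    by_contra hc
    push Not at hc
    exact hKL (Subgroup.eq_of_le_of_card_ge hc (by rw [hcK, hcL])).symm
  have hA0 : ((p : ℕ) : Matrix (Fin 2) (Fin 2) D) ≠ 0 := by
    intro h
    have := congrFun (congrFun h 0) 0
    simp [Matrix.natCast_apply, hp.ne_zero] at this
  obtain ⟨g, hgE, hg1, hgp, hg0⟩ := exists_nrm_ne_zero hp hA0 (a := x.val) (b := y.val)
    (by rw [Subgroup.orderOf_coe]; exact orderOf_eq_prime (hpow K hcK x hxK) hx1')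
    (congrArg Subtype.val (hpow L hcL y hyL))
    (congrArg Subtype.val (setLike_mul_comm (hK hxK) (hL hyL))) (by
      rintro ⟨m, hm⟩
      apply hyK
      have : x ^ m = y := Subtype.ext hm
      rw [← this]
      exact K.zpow_mem hxK m)
  obtain ⟨g', hg'A, rfl⟩ : g ∈ A.map P.subtype := by
    refine (Subgroup.closure_le _).mpr ?_ hgE
    intro z hz
    simp only [Set.mem_insert_iff, Set.mem_singleton_iff] at hz
    rcases hz with rfl | rfl
    · exact ⟨x, hK hxK, rfl⟩
    · exact ⟨y, hL hyL, rfl⟩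
  obtain ⟨U, hU⟩ := exists_frame hp.ne_zero hgp hg1 hg0
  have hdg : ∀ n : P, ∃ a b, ((MulAut.conj U).toMonoidHom.comp P.subtype) n = dg a b := by
    intro n
    obtain ⟨m, rfl⟩ : ∃ m : P, m * m = n := by
      obtain ⟨k, hk⟩ := hP.exists_card_eq
      have hc : (Nat.card P).Coprime 2 := by
        rw [hk]
        exact Nat.Coprime.pow_left k ((Nat.coprime_primes hp Nat.prime_two).mpr h2)
      obtain ⟨m, hm⟩ := (powCoprime hc).surjective n
      exact ⟨m, by rw [← hm, powCoprime_apply, sq]⟩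
    have h1 := sq_comm_nrm hp.ne_zero (n := m.val) hgp hg1 hg0
      (congrArg Subtype.val (setLike_mul_comm (hAn.conj_mem _ hg'A m) hg'A))
    refine exists_dg_conj hp.ne_zero hU (y := (m * m : P).val) ?_
    conv_rhs => rw [← h1]
    simp [mul_assoc]
  obtain ⟨u, v, huv⟩ := exists_coord _ hdg
  have hinj : ∀ a b : P, u a = u b → v a = v b → a = b := by
    intro a b h1 h2
    have := huv a
    rw [h1, h2, ← huv b] at this
    exact Subtype.ext ((MulAut.conj U).injective this)
  have hcy : ∀ w : P →* Dˣ, IsCyclic w.range := fun w =>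
    have : Finite w.range := Finite.of_surjective _ w.rangeRestrict_surjective
    isCyclic_of_units hp (hP.of_surjective _ w.rangeRestrict_surjective) w.range.subtype
      w.range.subtype_injective (Or.inl h2)
  have hcm : ∀ (w : P →* Dˣ) (a b : P), w (a * b) = w (b * a) := by
    intro w a b
    have := (hcy w).isMulCommutative
    rw [map_mul, map_mul]
    exact setLike_mul_comm (s := w.range) ⟨a, rfl⟩ ⟨b, rfl⟩
  refine ⟨fun a ha b hb => congrArg Subtype.val
    (hinj (⟨a, ha⟩ * ⟨b, hb⟩) (⟨b, hb⟩ * ⟨a, ha⟩) (hcm u _ _) (hcm v _ _)), fun B _ hB => ?_⟩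
  have hcard : ∀ w : P →* Dˣ, Finite (B.map w) ∧ Nat.card (B.map w) ≤ p := by
    intro w
    have := hcy w
    have : Finite w.range := Finite.of_surjective _ w.rangeRestrict_surjective
    have : IsCyclic (B.map w) := Subgroup.isCyclic_of_le (B.map_le_range w)
    refine ⟨Finite.Set.subset (w.range : Set Dˣ) (B.map_le_range w),
      card_le_of_isCyclic_of_pow hp.ne_zero ?_⟩
    rintro ⟨_, b, hb, rfl⟩
    exact Subtype.ext (by simp [← map_pow, hB b hb])
  obtain ⟨_, h1⟩ := hcard u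
  obtain ⟨_, h3⟩ := hcard v
  let F : B → B.map u × B.map v := fun b => (⟨u b, b, b.2, rfl⟩, ⟨v b, b, b.2, rfl⟩)
  have hF : Function.Injective F := by
    intro a b h
    simp only [F, Prod.mk.injEq] at h
    exact Subtype.ext (hinj _ _ (congrArg Subtype.val h.1) (congrArg Subtype.val h.2))
  calc Nat.card B ≤ Nat.card (B.map u × B.map v) := Nat.card_le_card_of_injective F hF
    _ ≤ p * p := by rw [Nat.card_prod]; exact Nat.mul_le_mul h1 h3
    _ = p ^ 2 := (sq p).symm

end Cfsg.Lib.GL2D
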