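import Cfsg.Agent.GL2D.Defs
import Mathlib.LinearAlgebra.Vandermonde
import Mathlib.LinearAlgebra.Matrix.Adjugate
import Mathlib.FieldTheory.KummerExtension
import Mathlib.RingTheory.Polynomial.Cyclotomic.Roots
import Mathlib.RingTheory.AdjoinRoot

/-! Frobenius groups acting on spaces over a division ring of characteristic zero. -/

set_option autoImplicit false

namespace Cfsg.Lib.GL2D

open Finset

/-- Vandermonde systems with values in a module. -/
theorem vand_module {R M : Type*} [CommRing R] [AddCommGroup M] [Module R M] {n : ℕ} (N : R)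
    (y : Fin n → R) (hy : ∀ i j, i ≠ j → ∀ m : M, N • m = 0 → (y i - y j) • m = 0 → m = 0)
    (u : Fin n → M) (hu : ∀ a, N • u a = 0) (h : ∀ j, ∑ a : Fin n, y j ^ (a : ℕ) • u a = 0) (a : Fin n) :
    u a = 0 := by
  classical
  let V := Matrix.vandermonde y
  have hdet : V.det • u a = 0 := by
    have h1 : ∀ b, (∑ j, V.adjugate a j * V j b) = if a = b then V.det else 0 := by
      intro b
      have := congrFun (congrFun (Matrix.adjugate_mul V) a) b
      rw [Matrix.mul_apply] at this
      rw [this, Matrix.smul_apply, Matrix.one_apply]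
      split_ifs <;> simp
    calc V.det • u a = ∑ b, (if a = b then V.det else 0) • u b := by
          simp [ite_smul]
      _ = ∑ b, ∑ j, V.adjugate a j • (V j b • u b) := by
          refine Finset.sum_congr rfl fun b _ => ?_
          rw [← h1, Finset.sum_smul]
          simp [mul_smul]
      _ = ∑ j, V.adjugate a j • ∑ b : Fin n, y j ^ (b : ℕ) • u b := by
          rw [Finset.sum_comm]
          refine Finset.sum_congr rfl fun j _ => ?_
          rw [Finset.smul_sum]
          rfl
      _ = 0 := by simp [h]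
  have key : ∀ m : M, N • m = 0 → V.det • m = 0 → m = 0 := by
    have hmul : ∀ r s : R, (∀ m : M, N • m = 0 → r • m = 0 → m = 0) →
        (∀ m : M, N • m = 0 → s • m = 0 → m = 0) → ∀ m : M, N • m = 0 → (r * s) • m = 0 → m = 0 := by
      intro r s hr hs m hm hrs
      apply hs m hm
      apply hr
      · rw [smul_comm, hm, smul_zero]
      · rwa [← mul_smul]
    have hone : ∀ m : M, N • m = 0 → (1 : R) • m = 0 → m = 0 := fun m _ h => by simpa using h
    rw [Matrix.det_vandermonde]
    refine Finset.prod_induction _ (fun r : R => ∀ m : M, N • m = 0 → r • m = 0 → m = 0) hmul hone ?_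
    intro i _
    refine Finset.prod_induction _ (fun r : R => ∀ m : M, N • m = 0 → r • m = 0 → m = 0) hmul hone ?_
    intro j hj
    exact hy j i (Finset.mem_Ioi.mp hj).ne'
  exact key _ (hu a) hdet

theorem geom_mul_pow_eq {A : Type*} [Ring A] {p : ℕ} {x : A} (hx : x ^ p = 1) (m : ℕ) :
    (∑ c ∈ range p, x ^ c) * x ^ m = ∑ c ∈ range p, x ^ c := by
  induction m with
  | zero => simp
  | succ m ih =>
    have := geom_sum_mul x p
    rw [hx, sub_self, mul_sub, mul_one, sub_eq_zero] at this
    rw [pow_succ, ← mul_assoc, ih, this]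

theorem exists_pow_pow_eq {A : Type*} [Monoid A] {p m : ℕ} (hp : p.Prime) {x : A} (hx : x ^ p = 1)
    (hm : ¬ p ∣ m) : ∃ r, (x ^ m) ^ r = x := by
  have hc : Nat.Coprime m p := ((Nat.Prime.coprime_iff_not_dvd hp).mpr hm).symm
  obtain ⟨r, hr⟩ := Nat.exists_mul_mod_eq_one_of_coprime hc hp.one_lt
  refine ⟨r, ?_⟩
  rw [← pow_mul, ← Nat.mod_add_div (m * r) p, pow_add, pow_mul, hx, hr.2]
  simp

theorem pow_mul_pow_twist {A : Type*} [Monoid A] {X K : A} {l : ℕ} (hK : K * X = X ^ l * K) (j m : ℕ) :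
    K ^ j * X ^ m = X ^ (m * l ^ j) * K ^ j := by
  have h1 : ∀ m, K * X ^ m = X ^ (m * l) * K := by
    intro m
    induction m with
    | zero => simp
    | succ m ih => rw [pow_succ, ← mul_assoc, ih, mul_assoc, hK, ← mul_assoc, ← pow_add, add_mul, one_mul]
  induction j with
  | zero => simp
  | succ j ih => rw [pow_succ', mul_assoc, ih, ← mul_assoc, h1, mul_assoc, mul_assoc, pow_succ l]

variable {D : Type*} [DivisionRing D] [CharZero D]

/-- Frobenius groups `p : n` need dimension `n`. -/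
theorem frob_dim {V : Type*} [AddCommGroup V] [Module D V] [Module.Finite D V] {p n l : ℕ}
    (hp : p.Prime) (X K : Module.End D V) (hX : X ^ p = 1) (hX1 : X ≠ 1) (hK : K * X = X ^ l * K)
    (hl0 : ¬ p ∣ l) (hl : ∀ j, 0 < j → j < n → ¬ l ^ j ≡ 1 [MOD p])
    (hKn : K ^ n * (X - 1) = X - 1) : n ≤ Module.finrank D V := by
  classical
  rcases Nat.eq_zero_or_pos n with rfl | hn
  · exact Nat.zero_le _
  set N : Module.End D V := ∑ c ∈ range p, X ^ c with hN
  have hpv : ∀ w : V, p • w = 0 → w = 0 := by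
    intro w hw
    rw [← Nat.cast_smul_eq_nsmul D] at hw
    exact (smul_eq_zero.mp hw).resolve_left (Nat.cast_ne_zero.mpr hp.ne_zero)
  have hinj : ∀ w : V, N w = 0 → ∀ m, ¬ p ∣ m → (X ^ m) w = w → w = 0 := by
    intro w hw m hm h
    obtain ⟨r, hr⟩ := exists_pow_pow_eq hp hX hm
    have h1 : ∀ c, ((X ^ m) ^ c) w = w := by
      intro c
      induction c with
      | zero => simp
      | succ c ih => rw [pow_succ, Module.End.mul_apply, h, ih]
    have h2 : ∀ c, (X ^ c) w = w := by
      intro c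
      rw [← hr, ← pow_mul]
      exact h1 _
    apply hpv
    rw [hN, LinearMap.sum_apply] at hw
    simpa [h2] using hw
  obtain ⟨w0, hw0⟩ : ∃ w0, (X - 1) w0 ≠ 0 := by
    by_contra hc
    push Not at hc
    exact hX1 (sub_eq_zero.mp (LinearMap.ext hc))
  let T : ℕ → Module.End D V := fun c => ∑ j ∈ range n, K ^ j * (X ^ c * (X - 1))
  have hTform : ∀ c j, K ^ j * (X ^ c * (X - 1)) = X ^ (c * l ^ j) * ((X ^ (l ^ j) - 1) * K ^ j) := by
    intro c j
    rw [← mul_assoc, pow_mul_pow_twist hK, mul_assoc, mul_sub, sub_mul, mul_one, one_mul]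
    have := pow_mul_pow_twist hK j 1
    rw [pow_one, one_mul] at this
    rw [this]
  have hKT : ∀ c, K * T c = T c := by
    intro c
    have h1 : K ^ n * (X ^ c * (X - 1)) = K ^ 0 * (X ^ c * (X - 1)) := by
      have hc : X ^ c * (X - 1) = (X - 1) * X ^ c := by
        rw [mul_sub, sub_mul, mul_one, one_mul, ← pow_succ, ← pow_succ']
      rw [hc, ← mul_assoc, hKn, pow_zero, one_mul]
    have h2 := Finset.sum_range_succ (fun j => K ^ j * (X ^ c * (X - 1))) n
    rw [Finset.sum_range_succ', h1] at h2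
    have h3 := add_right_cancel h2
    simp only [T]
    rw [Finset.mul_sum, ← h3]
    refine Finset.sum_congr rfl fun j _ => ?_
    rw [← mul_assoc, ← pow_succ']
  have hNT : ∀ c, N * T c = 0 := by
    intro c
    simp only [T]
    rw [Finset.mul_sum]
    refine Finset.sum_eq_zero fun j _ => ?_
    rw [hTform, ← mul_assoc, geom_mul_pow_eq hX, ← mul_assoc, mul_sub, geom_mul_pow_eq hX]
    simp
  have hsum : ∑ c ∈ range p, X ^ ((p - 1) * c) * T c = p • (X - 1) := by
    simp only [T, Finset.mul_sum]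
    rw [Finset.sum_comm]
    obtain ⟨n', rfl⟩ : ∃ n', n = n' + 1 := ⟨n - 1, by omega⟩
    rw [Finset.sum_range_succ']
    have h0 : ∑ c ∈ range p, X ^ ((p - 1) * c) * (K ^ 0 * (X ^ c * (X - 1))) = p • (X - 1) := by
      rw [Finset.sum_congr rfl (g := fun _ => X - 1)]
      · rw [Finset.sum_const, Finset.card_range]
      · intro c _
        rw [pow_zero, one_mul, ← mul_assoc, ← pow_add]
        have : (p - 1) * c + c = p * c := by
          obtain ⟨q, rfl⟩ : ∃ q, p = q + 1 := ⟨p - 1, by have := hp.pos; omega⟩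
          simp [add_mul]
        rw [this, pow_mul, hX, one_pow, one_mul]
    rw [h0, add_eq_right]
    refine Finset.sum_eq_zero fun j hj => ?_
    have hm : ¬ p ∣ (p - 1) + l ^ (j + 1) := by
      intro hd
      apply hl (j + 1) (Nat.succ_pos j) (by have := Finset.mem_range.mp hj; omega)
      have h1 : (p - 1) + l ^ (j + 1) ≡ (p - 1) + 1 [MOD p] := by
        rw [Nat.sub_add_cancel hp.pos]
        exact ((Nat.modEq_zero_iff_dvd).mpr hd).trans (Nat.modEq_zero_iff_dvd.mpr dvd_rfl).symm
      exact Nat.ModEq.add_left_cancel' _ h1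
    obtain ⟨r, hr⟩ := exists_pow_pow_eq hp hX hm
    set Y := X ^ ((p - 1) + l ^ (j + 1)) with hY
    have hYp : Y ^ p = 1 := by rw [hY, ← pow_mul, mul_comm, pow_mul, hX, one_pow]
    have h1 : ∀ c, X ^ ((p - 1) * c) * (K ^ (j + 1) * (X ^ c * (X - 1))) =
        Y ^ c * ((X ^ (l ^ (j + 1)) - 1) * K ^ (j + 1)) := by
      intro c
      rw [hTform, ← mul_assoc, ← pow_add, hY, ← pow_mul, add_mul, mul_comm c]
    simp only [h1]
    rw [← Finset.sum_mul, ← mul_assoc, mul_sub]
    have h2 : X ^ (l ^ (j + 1)) = Y ^ (r * l ^ (j + 1)) := by rw [pow_mul, hr]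
    rw [h2, geom_mul_pow_eq hYp]
    simp
  obtain ⟨c, hc⟩ : ∃ c, T c w0 ≠ 0 := by
    by_contra hc
    push Not at hc
    apply hw0
    apply hpv
    have := congrArg (fun f : Module.End D V => f w0) hsum
    simp only [LinearMap.sum_apply, Module.End.mul_apply, hc, map_zero, Finset.sum_const_zero,
      LinearMap.smul_apply] at this
    exact this.symm
  set v := T c w0 with hv
  have hKv : ∀ j, (K ^ j) v = v := by
    intro j
    induction j with
    | zero => simp
    | succ j ih => rw [pow_succ, Module.End.mul_apply, hv, ← Module.End.mul_apply K, hKT, ← hv, ih]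
  have hNv : N v = 0 := by rw [hv, ← Module.End.mul_apply, hNT]; simp
  have hli : LinearIndependent D (fun a : Fin n => (X ^ (a : ℕ)) v) := by
    rw [Fintype.linearIndependent_iff]
    intro g hg a
    let _ : Module (Polynomial ℤ) V :=
      Module.compHom V (Polynomial.aeval X : Polynomial ℤ →ₐ[ℤ] Module.End D V).toRingHom
    have hsm : ∀ (P : Polynomial ℤ) (m : V), P • m = (Polynomial.aeval X P) m := fun _ _ => rfl
    have hNsm : ∀ m : V, (∑ c ∈ range p, (Polynomial.X : Polynomial ℤ) ^ c) • m = N m := by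
      intro m
      rw [hsm]
      simp [hN]
    have := vand_module (M := V) (∑ c ∈ range p, (Polynomial.X : Polynomial ℤ) ^ c)
      (fun j : Fin n => (Polynomial.X : Polynomial ℤ) ^ (l ^ (j : ℕ))) ?_ (fun a => g a • v) ?_ ?_ a
    · exact (smul_eq_zero.mp this).resolve_right hc
    · have aux : ∀ i j : Fin n, i < j → ∀ m : V, N m = 0 → (X ^ (l ^ (i : ℕ))) m = (X ^ (l ^ (j : ℕ))) m →
          m = 0 := by
        intro i j hij m hm h
        apply hinj m hm (l ^ (j : ℕ) + (p - 1) * l ^ (i : ℕ))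
        · intro hd
          obtain ⟨d, hd'⟩ : ∃ d, (j : ℕ) = i + d := ⟨j - i, by have : (i : ℕ) < j := hij; omega⟩
          have hd0 : 0 < d := by have : (i : ℕ) < j := hij; omega
          apply hl d hd0 (by have := j.2; omega)
          rw [hd', pow_add, mul_comm (p - 1), ← mul_add] at hd
          have hd2 : p ∣ l ^ d + (p - 1) :=
            (hp.dvd_mul.mp hd).resolve_left fun h => hl0 (hp.dvd_of_dvd_pow h)
          have h1 : l ^ d + (p - 1) ≡ 1 + (p - 1) [MOD p] := by
            rw [add_comm 1, Nat.sub_add_cancel hp.pos]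
            exact ((Nat.modEq_zero_iff_dvd).mpr hd2).trans (Nat.modEq_zero_iff_dvd.mpr dvd_rfl).symm
          exact Nat.ModEq.add_right_cancel' _ h1
        · rw [add_comm, pow_add, Module.End.mul_apply, ← h, ← Module.End.mul_apply, ← pow_add]
          have : (p - 1) * l ^ (i : ℕ) + l ^ (i : ℕ) = p * l ^ (i : ℕ) := by
            obtain ⟨q, rfl⟩ : ∃ q, p = q + 1 := ⟨p - 1, by have := hp.pos; omega⟩
            simp [add_mul]
          rw [this, pow_mul, hX]
          simp
      intro i j hij m hm h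
      rw [hNsm] at hm
      rw [hsm] at h
      simp only [map_sub, map_pow, Polynomial.aeval_X, LinearMap.sub_apply, sub_eq_zero] at h
      rcases lt_or_gt_of_ne hij with h' | h'
      · exact aux i j h' m hm h
      · exact aux j i h' m hm h.symm
    · intro a
      rw [hNsm, map_smul, hNv, smul_zero]
    · intro j
      have h1 := congrArg (K ^ (j : ℕ)) hg
      rw [map_sum, map_zero] at h1
      rw [← h1]
      refine Finset.sum_congr rfl fun a _ => ?_
      rw [hsm, map_smul, map_smul, ← Module.End.mul_apply (K ^ (j : ℕ)), pow_mul_pow_twist hK,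
        Module.End.mul_apply, hKv]
      simp [← pow_mul, mul_comm]
  simpa using hli.fintype_card_le_finrank

/-- The action of `GL₂(D)` on row vectors. -/
noncomputable def rowAct : GG D →* Module.End D (Fin 2 → D) where
  toFun g := Matrix.toLinearMapRight' (g⁻¹ : GG D).val
  map_one' := by simp [Module.End.one_eq_id]
  map_mul' g h := by
    rw [mul_inv_rev, Units.val_mul, Matrix.toLinearMapRight'_mul]; rfl

omit [CharZero D] in
theorem rowAct_eq_1' : type_of% @rowAct.eq_1 := @rowAct.eq_1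

omit [CharZero D] in
theorem rowAct_eq_one {g : GG D} (h : rowAct g = 1) : g = 1 := by
  have h1 : Matrix.toLinearMapRight' (g⁻¹ : GG D).val =
      Matrix.toLinearMapRight' (1 : Matrix (Fin 2) (Fin 2) D) := by
    rw [Matrix.toLinearMapRight'_one]; exact h
  have h2 := Matrix.toLinearMapRight'.injective h1
  exact inv_eq_one.mp (Units.ext h2)

omit [CharZero D] in
theorem rowAct_neg_one : rowAct (-1 : GG D) = -1 := by
  have : ((-1 : GG D)⁻¹).val = -1 := by simp
  change Matrix.toLinearMapRight' ((-1 : GG D)⁻¹).val = -1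
  rw [this, map_neg, Matrix.toLinearMapRight'_one]; rfl

omit [CharZero D] in
theorem not_dvd_of_conj_eq {p l : ℕ} (hp : p.Prime) {x k : GG D} (hx : orderOf x = p)
    (hk : k * x * k⁻¹ = x ^ l) : ¬ p ∣ l := by
  intro h
  rw [← hx, orderOf_dvd_iff_pow_eq_one] at h
  rw [h] at hk
  have : x = 1 := by simpa using hk
  rw [this, orderOf_one] at hx
  exact hp.one_lt.ne hx

/-- Frobenius groups `p : n` need dimension `n` -/
theorem frob_le {p n l : ℕ} (hp : p.Prime) {x k : GG D} (hx : orderOf x = p) (hk : k * x * k⁻¹ = x ^ l)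
    (hl : ∀ j, 0 < j → j < n → ¬ l ^ j ≡ 1 [MOD p]) (hkn : k ^ n = 1) : n ≤ 2 := by
  have := frob_dim (D := D) (n := n) (l := l) hp (rowAct x) (rowAct k) ?_ ?_ ?_
    (not_dvd_of_conj_eq hp hx hk) hl ?_
  · simpa using this
  · rw [← map_pow, ← hx, pow_orderOf_eq_one, map_one]
  · intro h
    rw [rowAct_eq_one h, orderOf_one] at hx
    exact hp.one_lt.ne hx
  · rw [← map_pow, ← map_mul, ← map_mul, ← hk]; simp
  · rw [← map_pow, hkn, map_one, one_mul]

/-- The factorisation of the cyclotomic polynomial in any ring with a `p`-th root of unity. -/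
theorem prod_sub_pow_eq_geom {R : Type*} [CommRing R] {q : ℕ} (hp : (q + 1).Prime) (x y : R)
    (hx : ∑ c ∈ range (q + 1), x ^ c = 0) :
    ∏ a ∈ range q, (y - x ^ (a + 1)) = ∑ c ∈ range (q + 1), y ^ c := by
  have : Fact (q + 1).Prime := ⟨hp⟩
  let f : Polynomial ℤ := Polynomial.cyclotomic (q + 1) ℤ
  have hf : Prime f := (Polynomial.cyclotomic.irreducible hp.pos).prime
  have : IsDomain (AdjoinRoot f) := AdjoinRoot.isDomain_of_prime hf
  have hdeg : f.degree ≠ 0 := by
    intro h
    have h1 := Polynomial.natDegree_cyclotomic (q + 1) ℤ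
    rw [Nat.totient_prime hp, Polynomial.natDegree_eq_of_degree_eq_some (n := 0) h] at h1
    have := hp.two_le
    omega
  have : CharZero (AdjoinRoot f) :=
    charZero_of_injective_ringHom (AdjoinRoot.of.injective_of_degree_ne_zero hdeg)
  have hz : IsPrimitiveRoot (AdjoinRoot.root f) (q + 1) := by
    rw [← Polynomial.isRoot_cyclotomic_iff_charZero hp.pos]
    have := AdjoinRoot.isRoot_root f
    rwa [show f.map (AdjoinRoot.of f) = Polynomial.cyclotomic (q + 1) (AdjoinRoot f) from
      Polynomial.map_cyclotomic _ _] at this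
  have h1 := X_pow_sub_C_eq_prod hz q.zero_lt_succ (one_pow (q + 1))
  rw [Polynomial.C_1, ← mul_geom_sum, prod_range_succ', pow_zero, mul_one, mul_comm, eq_comm] at h1
  replace h1 := mul_right_cancel₀ (Polynomial.X_sub_C_ne_zero 1) h1
  have hev : f.eval₂ (Int.castRingHom R) x = 0 := by
    simp only [f]
    rw [Polynomial.cyclotomic_prime, Polynomial.eval₂_finsetSum]
    simpa using hx
  have h2 := congrArg (Polynomial.eval₂RingHom (AdjoinRoot.lift (Int.castRingHom R) x hev) y) h1
  simpa [map_prod, map_sum, Polynomial.eval₂_pow] using h2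

theorem sub_one_mul_prod_sub_pow {R : Type*} [CommRing R] {q : ℕ} (hp : (q + 1).Prime) (x y : R)
    (hx : x ^ (q + 1) = 1) :
    (∏ a ∈ range q, (y - x ^ (a + 1))) * (x - 1) = (∑ c ∈ range (q + 1), y ^ c) * (x - 1) := by
  let I : Ideal R := LinearMap.ker (LinearMap.mulRight R (x - 1))
  have hI : ∀ r, r ∈ I ↔ r * (x - 1) = 0 := fun r => Iff.rfl
  have h := prod_sub_pow_eq_geom hp (Ideal.Quotient.mk I x) (Ideal.Quotient.mk I y) (by
    have : Ideal.Quotient.mk I (∑ c ∈ range (q + 1), x ^ c) = 0 := by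
      rw [Ideal.Quotient.eq_zero_iff_mem, hI, geom_sum_mul, hx, sub_self]
    simpa [map_sum] using this)
  have h2 : Ideal.Quotient.mk I (∏ a ∈ range q, (y - x ^ (a + 1))) =
      Ideal.Quotient.mk I (∑ c ∈ range (q + 1), y ^ c) := by
    simpa [map_sum, map_prod] using h
  rw [Ideal.Quotient.eq, hI, sub_mul, sub_eq_zero] at h2
  exact h2

/-- The cosets of a subgroup of index two of `(ℤ/p)ˣ`. -/
theorem exists_prod_split {p n l : ℕ} (hp : p.Prime) (hpn : p = 2 * n + 1) (hl0 : ¬ p ∣ l)
    (hl : ∀ j, 0 < j → j < n → ¬ l ^ j ≡ 1 [MOD p]) (hln : l ^ n ≡ 1 [MOD p]) :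
    ∃ g : ℕ, ∀ {R : Type*} [CommMonoid R] (F : ℕ → R), (∀ a b, a ≡ b [MOD p] → F a = F b) →
      ∏ j ∈ range n, (F (l ^ j) * F (g * l ^ j)) = ∏ a ∈ range (2 * n), F (a + 1) := by
  classical
  have hn : 0 < n := by have := hp.two_le; omega
  have hcan : ∀ a b c, ¬ p ∣ c → c * a ≡ c * b [MOD p] → a ≡ b [MOD p] := fun a b c hc h =>
    Nat.ModEq.cancel_left_of_coprime ((Nat.Prime.coprime_iff_not_dvd hp).mpr hc) h
  have hlp : ∀ j, ¬ p ∣ l ^ j := fun j h => hl0 (hp.dvd_of_dvd_pow h)
  have hinj : ∀ i j, i < n → j < n → l ^ i ≡ l ^ j [MOD p] → i = j := by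
    have aux : ∀ i j, i < j → j < n → ¬ l ^ i ≡ l ^ j [MOD p] := by
      intro i j hij hj h
      obtain ⟨d, rfl⟩ : ∃ d, j = i + d := ⟨j - i, by omega⟩
      apply hl d (by omega) (by omega)
      apply hcan _ _ _ (hlp i)
      rw [← pow_add, mul_one]
      exact h.symm
    intro i j hi hj h
    rcases lt_trichotomy i j with h' | h' | h'
    · exact absurd h (aux i j h' hj)
    · exact h'
    · exact absurd h.symm (aux j i h' hi)
  have hred : ∀ m, ∃ j < n, l ^ m ≡ l ^ j [MOD p] := by
    intro m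
    refine ⟨m % n, Nat.mod_lt _ hn, ?_⟩
    conv_lhs => rw [← Nat.mod_add_div m n, pow_add, pow_mul]
    simpa using ((hln.pow (m / n)).mul_left (l ^ (m % n)))
  let S := Ico 1 p
  have hS : S.card = 2 * n := by simp [S, hpn]
  have hmem : ∀ a, ¬ p ∣ a → a % p ∈ S := by
    intro a ha
    simp only [S, mem_Ico]
    exact ⟨Nat.pos_of_ne_zero fun h => ha (Nat.dvd_of_mod_eq_zero h), Nat.mod_lt _ hp.pos⟩
  let S1 := (range n).image fun j => l ^ j % p
  have hi1 : Set.InjOn (fun j => l ^ j % p) (range n : Set ℕ) := fun i hi j hj h =>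
    hinj i j (by simpa using hi) (by simpa using hj) h
  have hS1 : S1.card = n := by rw [card_image_of_injOn hi1, card_range]
  obtain ⟨g, hgS, hg⟩ : ∃ g ∈ S, g ∉ S1 := by
    by_contra hc
    push Not at hc
    have := card_le_card (show S ⊆ S1 from hc)
    omega
  have hg0 : ¬ p ∣ g := by
    simp only [S, mem_Ico] at hgS
    exact Nat.not_dvd_of_pos_of_lt hgS.1 hgS.2
  let S2 := (range n).image fun j => (g * l ^ j) % p
  have hi2 : Set.InjOn (fun j => (g * l ^ j) % p) (range n : Set ℕ) := fun i hi j hj h =>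
    hinj i j (by simpa using hi) (by simpa using hj) (hcan _ _ _ hg0 h)
  have hS2 : S2.card = n := by rw [card_image_of_injOn hi2, card_range]
  have hdisj : Disjoint S1 S2 := by
    rw [disjoint_left]
    intro a h1 h2
    obtain ⟨i, hi, rfl⟩ := mem_image.mp h1
    obtain ⟨j, hj, h⟩ := mem_image.mp h2
    have hj' := mem_range.mp hj
    obtain ⟨m, hm, hm'⟩ := hred (i + (n - j))
    apply hg
    refine mem_image.mpr ⟨m, mem_range.mpr hm, ?_⟩
    have h3 : g * l ^ j * l ^ (n - j) ≡ l ^ i * l ^ (n - j) [MOD p] := Nat.ModEq.mul_right _ h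
    rw [mul_assoc, ← pow_add, ← pow_add, Nat.add_sub_cancel' hj'.le] at h3
    have h4 : g ≡ l ^ m [MOD p] := by
      have := (hln.mul_left g).symm
      rw [mul_one] at this
      exact (this.trans h3).trans hm'
    have : g % p = g := Nat.mod_eq_of_lt (mem_Ico.mp hgS).2
    rw [← this]
    exact h4.symm
  have hun : S1 ∪ S2 = S := by
    apply eq_of_subset_of_card_le
    · intro a ha
      rcases mem_union.mp ha with h | h
      · obtain ⟨i, _, rfl⟩ := mem_image.mp h
        exact hmem _ (hlp i)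
      · obtain ⟨i, _, rfl⟩ := mem_image.mp h
        exact hmem _ fun h => (hp.dvd_mul.mp h).elim hg0 (hlp i)
    · rw [card_union_of_disjoint hdisj]; omega
  refine ⟨g, fun F hF => ?_⟩
  have h1 : ∏ a ∈ range (2 * n), F (a + 1) = ∏ a ∈ S, F a := by
    simp only [S]
    rw [Finset.prod_Ico_eq_prod_range, hpn]
    simp [add_comm]
  rw [h1, ← hun, prod_union hdisj, prod_image hi1, prod_image hi2, prod_mul_distrib]
  congr 1
  · exact prod_congr rfl fun j _ => hF _ _ (Nat.mod_modEq _ _).symm
  · exact prod_congr rfl fun j _ => hF _ _ (Nat.mod_modEq _ _).symm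

open scoped IsMulCommutative in
/-- Twisting `k` by a unit of norm `-1`. -/
theorem exists_twist {A : Type*} [Ring A] {p n l : ℕ} (hp : p.Prime) (hpn : p = 2 * n + 1)
    (h3 : p % 3 = 2) {X K W : A} (hX : X ^ p = 1) (hK : K * X = X ^ l * K) (hl0 : ¬ p ∣ l)
    (hl : ∀ j, 0 < j → j < n → ¬ l ^ j ≡ 1 [MOD p]) (hln : l ^ n ≡ 1 [MOD p]) (hKn : K ^ n = -1)
    (hW : W * W + W + 1 = 0) (hWX : W * X = X * W) (hWK : W * K = K * W) :
    ∃ K' : A, K' * X = X ^ l * K' ∧ K' ^ n * (X - 1) = X - 1 := by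
  obtain ⟨g, hg⟩ := exists_prod_split hp hpn hl0 hl hln
  let S := Algebra.adjoin ℤ ({X, W} : Set A)
  have : IsMulCommutative S := Algebra.isMulCommutative_adjoin ℤ (by
    intro a ha b hb
    simp only [Set.mem_insert_iff, Set.mem_singleton_iff] at ha hb
    rcases ha with rfl | rfl <;> rcases hb with rfl | rfl <;> simp [hWX])
  let x : S := ⟨X, Algebra.subset_adjoin (by simp)⟩
  let w : S := ⟨W, Algebra.subset_adjoin (by simp)⟩
  have hx : x ^ p = 1 := Subtype.ext (by simpa using hX)
  have hw : w * w + w + 1 = 0 := Subtype.ext (by simpa using hW)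
  have hw3 : w ^ 3 = 1 := by linear_combination (w - 1) * hw
  let F : ℕ → S := fun a => w - x ^ a
  have hF : ∀ a b, a ≡ b [MOD p] → F a = F b := by
    intro a b hab
    simp only [F]
    rw [← Nat.mod_add_div a p, ← Nat.mod_add_div b p, pow_add, pow_add, pow_mul, pow_mul, hx, hab]
    simp
  let U : ℕ → S := fun j => w ^ 2 * (F (l ^ j) * F (g * l ^ j))
  have hKF : ∀ j a, K ^ j * (F a : A) = (F (a * l ^ j) : A) * K ^ j := by
    intro j a
    have hc : K ^ j * W = W * K ^ j := ((Commute.pow_right (show Commute W K from hWK) j).eq).symm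
    simp only [F, AddSubgroupClass.coe_sub, SubmonoidClass.coe_pow, x, w]
    rw [mul_sub, sub_mul, hc, pow_mul_pow_twist hK]
  have hKU : ∀ j, K ^ j * (U 0 : A) = (U j : A) * K ^ j := by
    intro j
    have hc : K ^ j * W ^ 2 = W ^ 2 * K ^ j :=
      ((Commute.pow_pow (show Commute W K from hWK) 2 j).eq).symm
    simp only [U, MulMemClass.coe_mul, SubmonoidClass.coe_pow, w]
    rw [← mul_assoc, hc, mul_assoc, ← mul_assoc (K ^ j), hKF, mul_assoc, hKF]
    simp [mul_assoc]
  have hpow : ∀ m, ((U 0 : A) * K) ^ m = ((∏ j ∈ range m, U j : S) : A) * K ^ m := by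
    intro m
    induction m with
    | zero => simp
    | succ m ih =>
      rw [pow_succ, ih, prod_range_succ, mul_assoc, ← mul_assoc (K ^ m), hKU,
        MulMemClass.coe_mul _ (∏ j ∈ range m, U j), pow_succ K, mul_assoc, mul_assoc]
  have hprod : (∏ j ∈ range n, U j) * (x - 1) = -(x - 1) := by
    simp only [U]
    rw [prod_mul_distrib, prod_const, card_range, hg F hF, mul_assoc]
    have h1 := sub_one_mul_prod_sub_pow (q := 2 * n) (hpn ▸ hp) x w (hpn ▸ hx)
    simp only [F]
    rw [h1]
    obtain ⟨m, rfl⟩ : ∃ m, n = 3 * m + 2 := ⟨n / 3, by omega⟩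
    have h2 : ∀ m, ∑ c ∈ range (3 * m + 2), w ^ c = 1 + w := by
      intro m
      induction m with
      | zero => simp [sum_range_succ]
      | succ m ih =>
        rw [show 3 * (m + 1) + 2 = 3 * m + 2 + 1 + 1 + 1 by ring, sum_range_succ, sum_range_succ,
          sum_range_succ, ih]
        linear_combination w ^ (3 * m + 2) * hw
    rw [show 2 * (3 * m + 2) + 1 = 3 * (2 * m + 1) + 2 by ring, h2, ← pow_mul,
      show 2 * (3 * m + 2) = 3 * (2 * m + 1) + 1 by ring, pow_succ, pow_mul, hw3, one_pow]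
    linear_combination (x - 1) * hw
  refine ⟨(U 0 : A) * K, ?_, ?_⟩
  · have : (U 0 : A) * X ^ l = X ^ l * U 0 := by
      have := congrArg Subtype.val (mul_comm (U 0) (x ^ l))
      simpa using this
    rw [mul_assoc, hK, ← mul_assoc, this, mul_assoc]
  · have := congrArg Subtype.val hprod
    simp only [MulMemClass.coe_mul, AddSubgroupClass.coe_sub, NegMemClass.coe_neg, OneMemClass.coe_one,
      x] at this
    rw [hpow, hKn, mul_neg_one, neg_mul, this, neg_neg]

/-- the twisted version for `p = 2n+1 ≡ 2 mod 3` -/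
theorem fermat_le {p n l : ℕ} (hp : p.Prime) (hpn : p = 2 * n + 1) (h3 : p % 3 = 2) {x k : GG D}
    (hx : orderOf x = p) (hk : k * x * k⁻¹ = x ^ l)
    (hl : ∀ j, 0 < j → j < n → ¬ l ^ j ≡ 1 [MOD p]) (hkn : k ^ n = -1) : n ≤ 4 := by
  let V := Fin 2 → D
  let ψ : Module.End D V →+* Module.End D (V × V) :=
    (LinearMap.prodMapRingHom D V V).comp (RingHom.prod (RingHom.id _) (RingHom.id _))
  have hψ : ∀ (f : Module.End D V) (v : V × V), ψ f v = (f v.1, f v.2) := fun _ _ => rfl
  let W : Module.End D (V × V) :=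
    LinearMap.prod (-LinearMap.snd D V V) (LinearMap.fst D V V - LinearMap.snd D V V)
  have hWa : ∀ v : V × V, W v = (-v.2, v.1 - v.2) := fun _ => rfl
  have hWψ : ∀ f, W * ψ f = ψ f * W := by
    intro f
    refine LinearMap.ext fun v => ?_
    simp [hWa, hψ]
  have hl0 := not_dvd_of_conj_eq hp hx hk
  have hkx : k * x = x ^ l * k := by rw [← hk]; simp
  have hln : l ^ n ≡ 1 [MOD p] := by
    have := pow_mul_pow_twist hkx n 1
    rw [hkn, one_mul, neg_mul, mul_neg, neg_inj, one_mul, mul_one, pow_eq_pow_iff_modEq, hx] at this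
    exact this.symm
  have hX : ψ (rowAct x) ^ p = 1 := by
    rw [← map_pow, ← map_pow, ← hx, pow_orderOf_eq_one, map_one, map_one]
  obtain ⟨K', h1, h2⟩ := exists_twist (X := ψ (rowAct x)) (K := ψ (rowAct k)) (W := W) hp hpn h3 hX
    (by rw [← map_pow, ← map_pow, ← map_mul, ← map_mul, ← map_mul, ← map_mul, hkx]) hl0 hl hln
    (by rw [← map_pow, ← map_pow, hkn, rowAct_neg_one, map_neg, map_one])
    (by
      refine LinearMap.ext fun v => ?_
      refine Prod.ext ?_ ?_ <;> simp only [LinearMap.add_apply, Module.End.mul_apply, hWa,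
        Module.End.one_apply, Prod.fst_add, Prod.snd_add, LinearMap.zero_apply, Prod.fst_zero,
        Prod.snd_zero] <;> abel) (hWψ _) (hWψ _)
  have := frob_dim (D := D) hp _ K' hX ?_ h1 hl0 hl h2
  · simpa [V] using this
  · intro h
    have : rowAct x = 1 := by
      refine LinearMap.ext fun v => ?_
      have := congrArg (fun f : Module.End D (V × V) => (f (v, 0)).1) h
      simpa [hψ] using this
    rw [rowAct_eq_one this, orderOf_one] at hx
    exact hp.one_lt.ne hx

end Cfsg.Lib.GL2D
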