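import Cfsg.Agent.GL2D.Lin
import Cfsg.Agent.GL2D.QS
import Cfsg.Agent.S0111
import Cfsg.Agent.S0215
import Mathlib.GroupTheory.Transfer

/-! From a quasisimple subgroup of `GL₂(D)` of 2-rank at least two to the coordinates of `Amb`. -/

set_option autoImplicit false

namespace Cfsg.Lib.GL2D

theorem eq_of_invol_of_isCyclic {H : Type*} [Group H] [Finite H] [IsCyclic H] {x y : H} (hx : x * x = 1)
    (hy : y * y = 1) (hx1 : x ≠ 1) (hy1 : y ≠ 1) : x = y := by
  classical
  by_contra hne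
  have := Fintype.ofFinite H
  have h := IsCyclic.card_pow_eq_one_le (α := H) (n := 2) two_pos
  have hsub : ({1, x, y} : Finset H) ⊆ Finset.univ.filter fun a : H => a ^ 2 = 1 := by
    intro a ha
    simp only [Finset.mem_insert, Finset.mem_singleton] at ha
    rcases ha with rfl | rfl | rfl <;> simp [sq, hx, hy]
  have hc := Finset.card_le_card hsub
  rw [Finset.card_eq_three.mpr ⟨1, x, y, hx1.symm, hy1.symm, hne, rfl⟩] at hc
  omega

theorem exists_two_invol {H : Type*} [Group H] [Finite H] (hH : IsPGroup 2 H) {A : Subgroup H}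
    (hA : IsMulCommutative A) (hc : ¬ IsCyclic A) :
    ∃ a ∈ A, ∃ b ∈ A, a * a = 1 ∧ b * b = 1 ∧ a ≠ 1 ∧ b ≠ 1 ∧ a ≠ b := by
  have : Fact (Nat.Prime 2) := ⟨Nat.prime_two⟩
  by_contra hne
  push Not at hne
  apply hc
  refine Solv.PG.isCyclic_of_unique_card_prime (p := 2) (hH.to_subgroup A) ?_ (Or.inr hA)
  have hpow : ∀ (M : Subgroup H), Nat.card M = 2 → ∀ y ∈ M, y * y = 1 := by
    intro M hM y hy
    have := pow_card_eq_one' (G := M) (x := ⟨y, hy⟩)
    rw [hM, sq] at this
    exact congrArg Subtype.val this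
  intro K L hK hL hcK hcL
  have hKb : L ≠ ⊥ := by
    rintro rfl
    rw [Subgroup.card_bot] at hcL
    omega
  obtain ⟨⟨x, hxK⟩, hx1⟩ := Subgroup.ne_bot_iff_exists_ne_one.mp hKb
  have hx1' : x ≠ 1 := fun h => hx1 (Subtype.ext h)
  apply Subgroup.eq_of_le_of_card_ge _ (by rw [hcK, hcL])
  intro y hy
  by_cases hy1 : y = 1
  · rw [hy1]; exact L.one_mem
  · rw [hne y (hK hy) x (hL hxK) (hpow K hcK y hy) (hpow L hcL x hxK) hy1 hx1']
    exact hxK

variable {D : Type*} [DivisionRing D] [CharZero D]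

omit [CharZero D] in
theorem eq_or_eq_neg_of_sq {i x : Dˣ} (hi : i * i = -1) (hx : x * x = -1) (h : x * i = i * x) :
    x = i ∨ x = -i := by
  have hi' : (i : D) * i = -1 := by rw [← Units.val_mul, hi]; simp
  have hx' : (x : D) * x = -1 := by rw [← Units.val_mul, hx]; simp
  have h' : (x : D) * i = i * x := by rw [← Units.val_mul, h, Units.val_mul]
  have : ((x : D) - i) * (x + i) = 0 := by
    rw [sub_mul, mul_add, mul_add, hi', hx', h']; abel
  rcases mul_eq_zero.mp this with h | h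
  · left; exact Units.ext (sub_eq_zero.mp h)
  · right; exact Units.ext (by simpa using eq_neg_of_add_eq_zero_left h)

/-- A finite `2`-group of units centralised by a square root of `-1` is abelian. -/
theorem isMulCommutative_of_sqrt (Q : Subgroup Dˣ) [Finite Q] (hQ : IsPGroup 2 Q) {i : Dˣ}
    (hi : i * i = -1) (hc : ∀ a ∈ Q, a * i = i * a) : IsMulCommutative Q := by
  have : Fact (Nat.Prime 2) := ⟨Nat.prime_two⟩
  rcases Solv.PG.two_group_of_forall_normal_abelian_isCyclic hQ (fun A _ hA =>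
    isCyclic_of_units Nat.prime_two (hQ.to_subgroup A) (Q.subtype.comp A.subtype)
      (Q.subtype_injective.comp A.subtype_injective) (Or.inr hA)) with
    h | ⟨a, x, n, hn, ha, hx, -, -, h⟩
  · exact h.isMulCommutative
  exfalso
  have hm : ((a ^ 2 ^ (n - 1) : Q) : Dˣ) = -1 := by
    have h1 : a ^ 2 ^ (n - 1) ≠ 1 := pow_ne_one_of_lt_orderOf (by positivity)
      (by rw [ha]; exact Nat.pow_lt_pow_right one_lt_two (by omega))
    have h2 : a ^ 2 ^ (n - 1) * a ^ 2 ^ (n - 1) = 1 := by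
      rw [← pow_add, ← two_mul, ← pow_succ', Nat.sub_add_cancel (by omega), ← ha, pow_orderOf_eq_one]
    exact (units_sq_eq_one (congrArg Subtype.val h2)).resolve_left fun h => h1 (Subtype.ext h)
  have h2 : x * x = 1 → False := by
    intro h
    apply hx
    rcases units_sq_eq_one (congrArg Subtype.val h) with h | h
    · rw [show x = 1 from Subtype.ext h]; exact Subgroup.one_mem _
    · rw [show x = a ^ 2 ^ (n - 1) from Subtype.ext (h.trans hm.symm)]
      exact Subgroup.pow_mem _ (Subgroup.mem_zpowers a) _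
  rcases h with ⟨h3, h4⟩ | ⟨-, h, -⟩ | ⟨-, h, -⟩
  · have h5 : (x : Dˣ) * x = -1 := by rw [← hm, ← h4]; rfl
    have h6 : x * a = a * x := by
      apply Subtype.ext
      change (x : Dˣ) * a = a * x
      rcases eq_or_eq_neg_of_sq hi h5 (hc x x.2) with h | h <;> rw [h]
      · exact (hc a a.2).symm
      · rw [neg_mul, mul_neg, hc a a.2]
    rw [h6, mul_inv_cancel_right, eq_inv_iff_mul_eq_one, ← sq, ← orderOf_dvd_iff_pow_eq_one, ha] at h3
    have := Nat.le_of_dvd two_pos h3
    have : 2 ^ 2 ≤ 2 ^ n := Nat.pow_le_pow_right two_pos hn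
    omega
  · exact h2 h
  · exact h2 h

omit [CharZero D] in
theorem mono_unique {x : GG D} {a b c d : Dˣ} (h1 : x = dg a b ∨ x = dg a b * sw)
    (h2 : x = dg c d ∨ x = dg c d * sw) : a = c ∧ b = d := by
  rcases h1 with rfl | rfl <;> rcases h2 with h | h
  · exact dg_inj.mp h
  · exact absurd h (dg_ne_dg_mul_sw _ _ _ _)
  · exact absurd h (dg_mul_sw_ne_dg _ _ _ _)
  · exact dg_mul_sw_inj.mp h

open scoped IsMulCommutative in
/-- No central element of order four (transfer). -/
theorem not_central_sqrt {H : Type*} [Group H] [Finite H] (hperf : commutator H = ⊤) (f : H →* GG D)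
    (T : Subgroup H) (hT : IsPGroup 2 T) (hodd : ¬ 2 ∣ T.index) {t s : H} (hs : s ∈ T) (hft : f t = tt)
    (hfs : f s = sw) (hmono : ∀ x ∈ T, ∃ a b, f x = dg a b ∨ f x = dg a b * sw) {y : H} (hyT : y ∈ T)
    (hy : ∀ g, g * y = y * g) : f y * f y ≠ -1 := by
  intro hy2
  obtain ⟨i, i', hi⟩ := exists_dg_of_comm (g := f y) (by rw [← hft, ← map_mul, ← hy, map_mul])
  have hii : i' = i := by
    have : sw * dg i i' = dg i i' * sw := by rw [← hi, ← hfs, ← map_mul, hy, map_mul]
    rw [sw_mul_dg, dg_mul_sw_inj] at this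
    exact this.1
  subst hii
  rw [hi, dg_mul, dg_eq_neg_one] at hy2
  let Q : Subgroup Dˣ :=
    { carrier := {a | ∃ b, ∃ x ∈ T, f x = dg a b}
      mul_mem' := by
        rintro a c ⟨b, x, hx, h1⟩ ⟨d, y, hy, h2⟩
        exact ⟨b * d, x * y, T.mul_mem hx hy, by rw [map_mul, h1, h2, dg_mul]⟩
      one_mem' := ⟨1, 1, T.one_mem, by rw [map_one, dg_one]⟩
      inv_mem' := by
        rintro a ⟨b, x, hx, h1⟩
        exact ⟨b⁻¹, x⁻¹, T.inv_mem hx, by rw [map_inv, h1, dg_inv]⟩ }
  have hQ : ∀ x ∈ T, ∀ a b, (f x = dg a b ∨ f x = dg a b * sw) → a ∈ Q ∧ b ∈ Q := by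
    have aux : ∀ x ∈ T, ∀ a b, f x = dg a b → a ∈ Q ∧ b ∈ Q := by
      intro x hx a b h
      refine ⟨⟨b, x, hx, h⟩, ⟨a, s * x * s, T.mul_mem (T.mul_mem hs hx) hs, ?_⟩⟩
      rw [map_mul, map_mul, hfs, h, sw_mul_dg, mul_assoc, sw_mul_sw, mul_one]
    rintro x hx a b (h | h)
    · exact aux x hx a b h
    · refine aux (x * s) (T.mul_mem hx hs) a b ?_
      rw [map_mul, h, hfs, mul_assoc, sw_mul_sw, mul_one]
  choose! α β hαβ using hmono
  have : Finite Q := by
    refine Finite.of_surjective (fun x : T => (⟨α x, (hQ x x.2 _ _ (hαβ x x.2)).1⟩ : Q)) ?_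
    rintro ⟨a, b, x, hx, h⟩
    exact ⟨⟨x, hx⟩, Subtype.ext (mono_unique (hαβ x hx) (Or.inl h)).1⟩
  have hQp : IsPGroup 2 Q := by
    rintro ⟨a, b, x, hx, h⟩
    obtain ⟨k, hk⟩ := hT ⟨x, hx⟩
    refine ⟨k, Subtype.ext ?_⟩
    have h1 : f x ^ 2 ^ k = 1 := by
      rw [← map_pow, show x ^ 2 ^ k = 1 from congrArg Subtype.val hk, map_one]
    rw [h, dg_pow, dg_eq_one] at h1
    exact h1.1
  have hcomm : IsMulCommutative Q := isMulCommutative_of_sqrt Q hQp hy2.1 (by
    rintro a ⟨b, x, hx, h⟩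
    have : dg a b * dg i' i' = dg i' i' * dg a b := by rw [← h, ← hi, ← map_mul, hy, map_mul]
    rw [dg_mul, dg_mul, dg_inj] at this
    exact this.1)
  let θ : T →* Q := MonoidHom.mk' (fun x => ⟨α x * β x, Q.mul_mem (hQ x x.2 _ _ (hαβ x x.2)).1
      (hQ x x.2 _ _ (hαβ x x.2)).2⟩) (by
    intro x y
    apply Subtype.ext
    change α (x * y) * β (x * y) = α x * β x * (α y * β y)
    have hx := hQ x x.2 _ _ (hαβ x x.2)
    have hy := hQ y y.2 _ _ (hαβ y y.2)
    have c1 : β x * α y = α y * β x := setLike_mul_comm hx.2 hy.1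
    have c2 : β x * β y = β y * β x := setLike_mul_comm hx.2 hy.2
    have c3 : α y * β y = β y * α y := setLike_mul_comm hy.1 hy.2
    have hxy := hαβ _ (T.mul_mem x.2 y.2)
    rw [map_mul] at hxy
    rcases hαβ x x.2 with h1 | h1 <;> rcases hαβ y y.2 with h2 | h2
    · obtain ⟨e1, e2⟩ := mono_unique hxy (Or.inl (by rw [h1, h2, dg_mul]))
      rw [e1, e2, mul_assoc, mul_assoc, ← mul_assoc (α y), ← c1, mul_assoc]
    · obtain ⟨e1, e2⟩ := mono_unique hxy (Or.inr (by rw [h1, h2, dg_mul_dg_mul]))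
      rw [e1, e2, mul_assoc, mul_assoc, ← mul_assoc (α y), ← c1, mul_assoc]
    · obtain ⟨e1, e2⟩ := mono_unique hxy (Or.inr (by
        rw [h1, h2, mul_assoc, sw_mul_dg, dg_mul_dg_mul]))
      rw [e1, e2, mul_assoc, mul_assoc, ← mul_assoc (β y), ← c2, mul_assoc, c3]
    · obtain ⟨e1, e2⟩ := mono_unique hxy (Or.inl (by
        rw [h1, h2, mul_assoc, sw_mul_dg_mul, sw_mul_sw, mul_one, dg_mul]))
      rw [e1, e2, mul_assoc, mul_assoc, ← mul_assoc (β y), ← c2, mul_assoc, c3])
  have hθy : ((θ ⟨y, hyT⟩ : Q) : Dˣ) = -1 := by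
    change α y * β y = -1
    obtain ⟨e1, e2⟩ := mono_unique (hαβ y hyT) (Or.inl hi)
    rw [e1, e2, hy2.1]
  have h1 : MonoidHom.transfer θ y = 1 := by
    have := Abelianization.commutator_subset_ker (MonoidHom.transfer θ)
    rw [hperf] at this
    exact this (Subgroup.mem_top y)
  rw [MonoidHom.transfer_eq_pow θ y (fun k g _ => by
    rw [mul_assoc, ← (Commute.pow_right (show Commute g y from hy g) k).eq, inv_mul_cancel_left])] at h1
  have h2 : θ ⟨y, hyT⟩ ^ T.index = 1 := by rw [← map_pow]; exact h1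
  have h3 := congrArg Subtype.val h2
  rw [SubmonoidClass.coe_pow, hθy, (Nat.odd_iff.mpr (by omega : T.index % 2 = 1)).neg_one_pow] at h3
  exact neg_one_ne_one' h3

/-- The coordinates give `Amb`. -/
theorem amb_of_coord {H : Type*} [Group H] [Finite H] (hperf : commutator H = ⊤)
    (hZ : IsPGroup 2 (Subgroup.center H)) [IsSimpleGroup (H ⧸ Subgroup.center H)] (f : H →* GG D)
    (hf : Function.Injective f) (hinv : ∀ z ∈ Subgroup.center H, z * z = 1 → f z = 1 ∨ f z = -1)
    (T : Sylow 2 H) {t s : H} (ht : t ∈ T) (hs : s ∈ T) (hft : f t = tt) (hfs : f s = sw)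
    (hT : ∀ x ∈ T, f x * f t = f t * f x ∨ f x * f t = -(f t * f x)) :
    Amb f.range ((T : Subgroup H).map f) := by
  have : Fact (Nat.Prime 2) := ⟨Nat.prime_two⟩
  have hmono : ∀ x ∈ (T : Subgroup H), ∃ a b, f x = dg a b ∨ f x = dg a b * sw := by
    intro x hx
    have := hT x hx
    rw [hft] at this
    rcases this with h | h
    · obtain ⟨a, b, h⟩ := exists_dg_of_comm h
      exact ⟨a, b, Or.inl h⟩
    · obtain ⟨a, b, h⟩ := exists_dg_of_anti h
      exact ⟨a, b, Or.inr h⟩
  have hZT : Subgroup.center H ≤ T := hZ.le_sylow_of_normal T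
  have hcen : ∀ y ∈ Subgroup.center H, f y = 1 ∨ f y = -1 := by
    have aux : ∀ k, ∀ y ∈ Subgroup.center H, y ^ 2 ^ k = 1 → f y = 1 ∨ f y = -1 := by
      intro k
      induction k with
      | zero => intro y _ h; left; rw [show y = 1 by simpa using h, map_one]
      | succ k ih =>
        intro y hy h
        rcases ih (y * y) (Subgroup.mul_mem _ hy hy) (by rw [← sq, ← pow_mul, ← pow_succ', h]) with h1 | h1
        · exact hinv y hy (hf (by rw [h1, map_one]))
        · rw [map_mul] at h1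
          exact absurd h1 (not_central_sqrt hperf f T T.isPGroup' T.not_dvd_index hs hft hfs hmono (hZT hy)
            (Subgroup.mem_center_iff.mp hy))
    intro y hy
    obtain ⟨k, hk⟩ := hZ ⟨y, hy⟩
    exact aux k y hy (congrArg Subtype.val hk)
  refine ⟨Finite.of_surjective _ f.rangeRestrict_surjective, Subgroup.map_le_range f _,
    T.isPGroup'.map f, ?_, ?_, ?_, ⟨t, ht, hft⟩, ⟨s, hs, hfs⟩, ?_⟩
  · rw [f.range_eq_map, Subgroup.relIndex_map_map_of_injective _ _ hf, Subgroup.relIndex_top_right]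
    exact T.not_dvd_index
  · have := congrArg (Subgroup.map f.rangeRestrict) hperf
    rwa [commutator_def, Subgroup.map_commutator,
      Subgroup.map_top_of_surjective _ f.rangeRestrict_surjective] at this
  · intro N hN hnorm
    have hN0 : (N.comap f).Normal := ⟨fun n hn g => by
      rw [Subgroup.mem_comap, map_mul, map_mul, map_inv]
      exact hnorm _ ⟨g, rfl⟩ _ hn⟩
    rcases (hN0.map (QuotientGroup.mk' (Subgroup.center H)) (QuotientGroup.mk'_surjective _)).eq_bot_or_eq_top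
      with h | h
    · right
      intro n hn
      obtain ⟨m, rfl⟩ := hN hn
      apply hcen
      rw [Subgroup.map_eq_bot_iff, QuotientGroup.ker_mk'] at h
      exact h hn
    · left
      apply le_antisymm hN
      have h1 : commutator H ≤ N.comap f := by
        rw [commutator_def, Subgroup.commutator_le]
        intro a _ b _
        obtain ⟨n, hn, hna⟩ : (QuotientGroup.mk' (Subgroup.center H)) a ∈
          (N.comap f).map (QuotientGroup.mk' (Subgroup.center H)) := h ▸ Subgroup.mem_top _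
        have h2 : n⁻¹ * a ∈ Subgroup.center H := QuotientGroup.eq.mp hna
        have h3 := Subgroup.mem_center_iff.mp h2 b
        rw [commutatorElement_def]
        have : a * b * a⁻¹ * b⁻¹ = n * (b * n⁻¹ * b⁻¹) := by
          calc a * b * a⁻¹ * b⁻¹ = n * ((n⁻¹ * a) * b) * a⁻¹ * b⁻¹ := by group
            _ = n * (b * n⁻¹ * b⁻¹) := by rw [← h3]; group
        rw [this]
        exact Subgroup.mul_mem _ hn (hN0.conj_mem _ (Subgroup.inv_mem _ hn) b)
      rintro _ ⟨x, rfl⟩
      rw [hperf] at h1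
      exact h1 (Subgroup.mem_top x)
  · rintro _ ⟨x, hx, rfl⟩
    exact hmono x hx

/-- A reflection whose axis is invariant under a Sylow 2-subgroup. -/
theorem exists_normal_axis {H : Type*} [Group H] [Finite H] (hperf : commutator H = ⊤) (f : H →* GG D)
    (hf : Function.Injective f) (T : Sylow 2 H) {z r : H} (hz : f z = -1) (hzT : z ∈ T) (hr : r ∈ T)
    (hr2 : r * r = 1) (hr1 : r ≠ 1) (hrz : r ≠ z) :
    ∃ t ∈ T, t * t = 1 ∧ t ≠ 1 ∧ t ≠ z ∧ ∀ x ∈ T, f x * f t = f t * f x ∨ f x * f t = -(f t * f x) := by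
  have : Fact (Nat.Prime 2) := ⟨Nat.prime_two⟩
  have hz2 : z * z = 1 := hf (by rw [map_mul, hz, map_one]; simp)
  have hz1 : z ≠ 1 := by
    intro h
    rw [h, map_one, ← dg_neg_one, ← dg_one, dg_inj] at hz
    exact neg_one_ne_one' hz.1.symm
  have hzc : ∀ g, g * z * g⁻¹ = z := fun g => hf (by rw [map_mul, map_mul, hz, map_inv]; simp)
  by_cases hA : ∃ A : Subgroup (T : Subgroup H), A.Normal ∧ IsMulCommutative A ∧ ¬ IsCyclic A
  · obtain ⟨A, hAn, hAc, hA⟩ := hA
    obtain ⟨t, htA, ht2, ht1, htz⟩ : ∃ t ∈ A, t * t = 1 ∧ t ≠ 1 ∧ (t : H) ≠ z := by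
      obtain ⟨a, ha, b, hb, ha2, hb2, ha1, hb1, hab⟩ := exists_two_invol T.isPGroup' hAc hA
      by_cases h : (a : H) = z
      · exact ⟨b, hb, hb2, hb1, fun h' => hab (Subtype.ext (h.trans h'.symm))⟩
      · exact ⟨a, ha, ha2, ha1, h⟩
    have ht2' : (t : H) * t = 1 := congrArg Subtype.val ht2
    have ht1' : (t : H) ≠ 1 := fun h => ht1 (Subtype.ext h)
    refine ⟨t, t.2, ht2', ht1', htz, fun x hx => ?_⟩
    have hc : (x * t * x⁻¹) * t = t * (x * t * x⁻¹) :=
      congrArg Subtype.val (setLike_mul_comm (hAn.conj_mem t htA ⟨x, hx⟩) htA)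
    by_cases he : x * t * x⁻¹ = t
    · left
      rw [← map_mul, ← map_mul]
      congr 1
      exact mul_inv_eq_iff_eq_mul.mp he
    · right
      rcases four (a := f (x * t * x⁻¹)) (b := f t)
        (by rw [← map_mul, show x * t * x⁻¹ * (x * t * x⁻¹) = x * (t * t) * x⁻¹ by group, ht2']; simp)
        (by rw [← map_mul, ht2', map_one]) (by rw [← map_mul, hc, map_mul])
        (fun h => ht1' (by simpa using hf (h.trans (map_one f).symm)))
        (fun h => ht1' (hf (h.trans (map_one f).symm))) (fun h => he (hf h)) with h | h | h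
      · exfalso
        apply htz
        have := hf (h.trans hz.symm)
        rw [← hzc x] at this
        simpa using this
      · exact absurd (hf (h.trans hz.symm)) htz
      · rw [← neg_mul, ← h]; simp
  exfalso
  push Not at hA
  rcases Solv.PG.two_group_of_forall_normal_abelian_isCyclic T.isPGroup' hA with
    h | ⟨a, -, n, -, ha, -, -, hc, -⟩
  · exact hrz (congrArg Subtype.val (eq_of_invol_of_isCyclic (H := (T : Subgroup H)) (x := ⟨r, hr⟩)
      (y := ⟨z, hzT⟩) (Subtype.ext hr2) (Subtype.ext hz2) (fun h => hr1 (congrArg Subtype.val h))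
      (fun h => hz1 (congrArg Subtype.val h))))
  have hle : Subgroup.zpowers (a : H) ≤ T := (Subgroup.zpowers_le).mpr a.2
  have hidx : (Subgroup.zpowers (a : H)).relIndex T = 2 := by
    have h1 := Subgroup.card_mul_index ((Subgroup.zpowers (a : H)).subgroupOf T)
    rw [Nat.card_congr (Subgroup.subgroupOfEquivOfLe hle).toEquiv, Nat.card_zpowers,
      Subgroup.orderOf_coe, ha, hc, pow_succ] at h1
    exact Nat.eq_of_mul_eq_mul_left (by positivity) h1
  have hth : ∀ u ∈ T, u * u = 1 → u ≠ 1 → ∃ g : H, g * u * g⁻¹ ∈ Subgroup.zpowers (a : H) := by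
    intro u hu hu2 hu1
    by_cases hua : u ∈ Subgroup.zpowers (a : H)
    · exact ⟨1, by simpa using hua⟩
    rcases Cfsg.Agent.S0111.result T _ hle hidx u (orderOf_eq_prime (by rw [sq, hu2]) hu1) hu hua with
      ⟨M, hMn, hM, hu⟩ | h
    · exfalso
      apply hu
      have : commutator H ≤ M := by
        rw [commutator_def, Subgroup.commutator_le]
        intro a _ b _
        rw [commutatorElement_def]
        simp [Subgroup.mul_mem_iff_of_index_two hM]
        tauto
      rw [hperf] at this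
      exact this (Subgroup.mem_top u)
    · exact h
  obtain ⟨g, hg⟩ := hth r hr hr2 hr1
  obtain ⟨g', hg'⟩ := hth z hzT hz2 hz1
  rw [hzc] at hg'
  have := congrArg Subtype.val (eq_of_invol_of_isCyclic (H := Subgroup.zpowers (a : H)) (x := ⟨_, hg⟩)
    (y := ⟨z, hg'⟩) (Subtype.ext (by
      change g * r * g⁻¹ * (g * r * g⁻¹) = 1
      rw [show g * r * g⁻¹ * (g * r * g⁻¹) = g * (r * r) * g⁻¹ by group, hr2]; simp))
    (Subtype.ext hz2) (fun h => hr1 (by simpa using congrArg Subtype.val h))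
    (fun h => hz1 (congrArg Subtype.val h)))
  apply hrz
  change g * r * g⁻¹ = z at this
  rw [← hzc g] at this
  simpa using this

/-- Glauberman's theorem in the quotient by the centre. -/
theorem exists_conj_ne_mod_center {H : Type*} [Group H] [Finite H] (hZ : IsPGroup 2 (Subgroup.center H))
    [IsSimpleGroup (H ⧸ Subgroup.center H)] (hna : ¬ IsMulCommutative (H ⧸ Subgroup.center H))
    (T : Sylow 2 H) {t : H} (ht : t ∈ T) (ht2 : t * t = 1) (htZ : t ∉ Subgroup.center H) :
    ∃ g : H, g * t * g⁻¹ ∈ T ∧ (g * t * g⁻¹)⁻¹ * t ∉ Subgroup.center H := by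
  have : Fact (Nat.Prime 2) := ⟨Nat.prime_two⟩
  by_contra hc
  push Not at hc
  let π := QuotientGroup.mk' (Subgroup.center H)
  have hπ : Function.Surjective π := QuotientGroup.mk'_surjective _
  have hZT : Subgroup.center H ≤ T := hZ.le_sylow_of_normal T
  have ht1 : π t ≠ 1 := fun h => htZ ((QuotientGroup.eq_one_iff t).mp h)
  have hord : orderOf (π t) = 2 := orderOf_eq_prime (by rw [sq, ← map_mul, ht2, map_one]) ht1
  obtain ⟨N, hNn, hNo, hN⟩ := Cfsg.Agent.S0215.result (T.mapSurjective hπ) (π t) hord ⟨t, ht, rfl⟩ (by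
    intro g hg
    obtain ⟨g, rfl⟩ := hπ g
    obtain ⟨x, hx, hxe⟩ := hg
    rw [← map_inv, ← map_mul, ← map_mul] at hxe ⊢
    have h1 : x⁻¹ * (g * t * g⁻¹) ∈ Subgroup.center H := QuotientGroup.eq.mp hxe
    have h2 : g * t * g⁻¹ ∈ T := by
      have := (T : Subgroup H).mul_mem hx (hZT h1)
      rwa [mul_inv_cancel_left] at this
    exact QuotientGroup.eq.mpr (hc g h2))
  rcases hNn.eq_bot_or_eq_top with rfl | rfl
  · have h1 : π t ∈ Subgroup.center (H ⧸ Subgroup.center H) := by
      rw [Subgroup.mem_center_iff]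
      intro g
      have := Subgroup.mem_bot.mp (hN g)
      rw [mul_inv_eq_one, mul_inv_eq_iff_eq_mul] at this
      exact this.symm
    rcases (inferInstance : (Subgroup.center (H ⧸ Subgroup.center H)).Normal).eq_bot_or_eq_top with h | h
    · rw [h] at h1
      exact ht1 (Subgroup.mem_bot.mp h1)
    · exact hna ⟨⟨fun a b => Subgroup.mem_center_iff.mp (h ▸ Subgroup.mem_top b) a⟩⟩
  · rw [Subgroup.card_top] at hNo
    have := orderOf_dvd_natCard (π t)
    rw [hord] at this
    exact (Nat.not_even_iff_odd.mpr hNo) (even_iff_two_dvd.mpr this)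

theorem QS.exists_amb {G : Subgroup (GG D)} (h : QS G) (h1 : ¬ PRankLE 2 1 G) :
    ∃ G' T : Subgroup (GG D), Amb G' T := by
  have := h.fin
  have := h.simple
  have : Fact (Nat.Prime 2) := ⟨Nat.prime_two⟩
  have hinv : ∀ z ∈ Subgroup.center G, z * z = 1 → z.val = 1 ∨ z.val = -1 := fun z hz hz2 =>
    h.inv z z.2 (fun g hg => congrArg Subtype.val (Subgroup.mem_center_iff.mp hz ⟨g, hg⟩))
      (congrArg Subtype.val hz2)
  obtain ⟨a, b, ha2, hb2, hab, ha1, hb1, hne⟩ : ∃ a b : G, a * a = 1 ∧ b * b = 1 ∧ a * b = b * a ∧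
      a ≠ 1 ∧ b ≠ 1 ∧ a ≠ b := by
    unfold PRankLE at h1
    push Not at h1
    obtain ⟨A, hA, hA2, hc⟩ := h1
    have hAp : IsPGroup 2 A := fun x => ⟨1, Subtype.ext (by simpa using hA2 x x.2)⟩
    have hnc : ¬ IsCyclic (⊤ : Subgroup A) := by
      intro hcy
      have := card_le_of_isCyclic_of_pow (H := (⊤ : Subgroup A)) two_ne_zero
        fun x => Subtype.ext (Subtype.ext (hA2 _ x.1.2))
      rw [Subgroup.card_top] at this
      omega
    obtain ⟨a, -, b, -, ha2, hb2, ha1, hb1, hne⟩ := exists_two_invol hAp inferInstance hnc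
    exact ⟨a, b, congrArg Subtype.val ha2, congrArg Subtype.val hb2, setLike_mul_comm a.2 b.2,
      fun h => ha1 (Subtype.ext h), fun h => hb1 (Subtype.ext h), fun h => hne (Subtype.ext h)⟩
  obtain ⟨z, hz⟩ : ∃ z : G, G.subtype z = -1 := by
    rcases four (a := a.val) (b := b.val) (congrArg Subtype.val ha2) (congrArg Subtype.val hb2)
      (congrArg Subtype.val hab) (fun h => ha1 (Subtype.ext h)) (fun h => hb1 (Subtype.ext h))
      (fun h => hne (Subtype.ext h)) with h | h | h
    · exact ⟨a, h⟩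
    · exact ⟨b, h⟩
    · refine ⟨a * b, ?_⟩
      change a.val * b.val = -1
      rw [h, neg_mul, show b.val * b.val = 1 from congrArg Subtype.val hb2]
  have hz' : z.val = -1 := hz
  have hzZ : z ∈ Subgroup.center G := by
    rw [Subgroup.mem_center_iff]
    intro g
    apply Subtype.ext
    simp [hz']
  obtain ⟨r, hr2, hr1, hrz⟩ : ∃ r : G, r * r = 1 ∧ r ≠ 1 ∧ r ≠ z := by
    by_cases h : a = z
    · exact ⟨b, hb2, hb1, fun h' => hne (h.trans h'.symm)⟩
    · exact ⟨a, ha2, ha1, h⟩
  obtain ⟨T, hT⟩ : ∃ T : Sylow 2 G, Subgroup.zpowers r ≤ T := by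
    apply IsPGroup.exists_le_sylow
    apply IsPGroup.of_card (n := 1)
    rw [Nat.card_zpowers, orderOf_eq_prime (by rw [sq, hr2]) hr1, pow_one]
  obtain ⟨t, ht, ht2, ht1, htz, htT⟩ := exists_normal_axis h.perf G.subtype G.subtype_injective T hz
    (h.cent.le_sylow_of_normal T hzZ) (hT (Subgroup.mem_zpowers r)) hr2 hr1 hrz
  have htZ : t ∉ Subgroup.center G := fun h' => (hinv t h' ht2).elim
    (fun h => ht1 (Subtype.ext h)) fun h => htz (Subtype.ext (h.trans hz'.symm))
  obtain ⟨g, hs, hsZ⟩ := exists_conj_ne_mod_center h.cent h.nonab T ht ht2 htZ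
  set s := g * t * g⁻¹ with hsdef
  have hs2 : s * s = 1 := by
    rw [hsdef, show g * t * g⁻¹ * (g * t * g⁻¹) = g * (t * t) * g⁻¹ by group, ht2]; simp
  have ht2' : t.val * t.val = 1 := congrArg Subtype.val ht2
  have hs2' : s.val * s.val = 1 := congrArg Subtype.val hs2
  have hst : s.val * t.val = -(t.val * s.val) := by
    refine (htT s hs).resolve_left fun hc => ?_
    have hsinv : s⁻¹ = s := inv_eq_of_mul_eq_one_right hs2
    rw [hsinv] at hsZ
    rcases four (a := s.val) (b := t.val) hs2' ht2' hc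
      (fun h => ht1 (by simpa [hsdef] using (Subtype.ext h : s = 1))) (fun h => ht1 (Subtype.ext h))
      (fun h => hsZ (by rw [(Subtype.ext h : s = t), ht2]; exact Subgroup.one_mem _)) with h | h | h
    · apply htz
      have h2 : g * t * g⁻¹ = g * z * g⁻¹ := by
        rw [Subgroup.mem_center_iff.mp hzZ g, mul_inv_cancel_right]
        exact Subtype.ext (h.trans hz'.symm)
      simpa using h2
    · exact htz (Subtype.ext (h.trans hz'.symm))
    · apply hsZ
      have : s * t = z := Subtype.ext (by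
        change s.val * t.val = z.val
        rw [h, neg_mul, ht2', hz'])
      rw [this]
      exact hzZ
  obtain ⟨P, hP⟩ := exists_conj_tt ht2' (fun h => ht1 (Subtype.ext h))
    (fun h => htz (Subtype.ext (h.trans hz'.symm)))
  obtain ⟨c, d, hcd⟩ := exists_dg_of_anti (g := P * s.val * P⁻¹) (by
    rw [← hP]
    calc P * s.val * P⁻¹ * (P * t.val * P⁻¹) = P * (s.val * t.val) * P⁻¹ := by group
      _ = -(P * (t.val * s.val) * P⁻¹) := by rw [hst, mul_neg, neg_mul]
      _ = -(P * t.val * P⁻¹ * (P * s.val * P⁻¹)) := by congr 1; group)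
  have hcd1 : c * d = 1 := by
    have : dg c d * sw * (dg c d * sw) = 1 := by
      rw [← hcd, show P * s.val * P⁻¹ * (P * s.val * P⁻¹) = P * (s.val * s.val) * P⁻¹ by group, hs2']
      simp
    rw [mul_assoc, sw_mul_dg_mul, sw_mul_sw, mul_one, dg_mul, dg_eq_one] at this
    exact this.1
  let U : GG D := dg 1 c * P
  let f : G →* GG D := (MulAut.conj U).toMonoidHom.comp G.subtype
  have hf : ∀ x : G, f x = U * x.val * U⁻¹ := fun _ => rfl
  have hf' : ∀ x : G, f x = dg 1 c * (P * x.val * P⁻¹) * (dg 1 c)⁻¹ := fun x => by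
    rw [hf]; simp only [U]; group
  refine ⟨_, _, amb_of_coord h.perf h.cent f ((MulAut.conj U).injective.comp G.subtype_injective)
    (fun y hy hy2 => ?_) T ht hs ?_ ?_ (fun x hx => ?_)⟩
  · rcases hinv y hy hy2 with h | h <;> simp [hf, h]
  · rw [hf', hP, dg_inv, dg_mul, dg_mul]; simp
  · rw [hf', hcd, dg_inv, dg_mul_dg_mul, mul_assoc, sw_mul_dg, dg_mul_dg_mul, hcd1]
    simp [dg_one]
  · rw [hf, hf]
    rcases htT x hx with h | h
    · left
      change x.val * t.val = t.val * x.val at h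
      calc U * x.val * U⁻¹ * (U * t.val * U⁻¹) = U * (x.val * t.val) * U⁻¹ := by group
        _ = _ := by rw [h]; group
    · right
      change x.val * t.val = -(t.val * x.val) at h
      calc U * x.val * U⁻¹ * (U * t.val * U⁻¹) = U * (x.val * t.val) * U⁻¹ := by group
        _ = -(U * (t.val * x.val) * U⁻¹) := by rw [h, mul_neg, neg_mul]
        _ = _ := by congr 1; group

end Cfsg.Lib.GL2D
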